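import Mathlib
import Cfsg.Agent.Lib.LargeExtra.Duality

/-!
Automorphisms of a group `P` with `Duality.Setting P c` (an extraspecial 2-group): counting lemmas
on `e ↦ e⁻¹ * γ e` modulo a subgroup containing `c`.
-/

set_option autoImplicit false
set_option linter.unusedSectionVars false
set_option linter.unusedVariables false
set_option linter.style.longLine false

namespace Cfsg.Agent.Lib.ExtraTransfer.ELevel

open Cfsg.Agent.Lib.LargeExtra.Duality

variable {P : Type*} [Group P] {c : P}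

theorem Ccomm (hS : Setting P c) (a : P) : a * c = c * a := hS.c_central a

theorem cinv (hS : Setting P c) : c⁻¹ = c := inv_eq_of_mul_eq_one_left hS.c_sq

theorem comm_or (hS : Setting P c) (a b : P) : a * b = b * a ∨ a * b = c * (b * a) := by
  rcases hS.comm a b with h | h
  · left; exact (comm_eq_one_iff a b).1 h
  · right
    calc a * b = (a * b * a⁻¹ * b⁻¹) * (b * a) := by group
      _ = c * (b * a) := by rw [h]

theorem sq_comm (hS : Setting P c) (a b : P) : (a * a) * b = b * (a * a) := by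
  rcases comm_or hS a b with h | h
  · calc a * a * b = a * (a * b) := by group
      _ = a * (b * a) := by rw [h]
      _ = (a * b) * a := by group
      _ = (b * a) * a := by rw [h]
      _ = b * (a * a) := by group
  · calc a * a * b = a * (a * b) := by group
      _ = a * (c * (b * a)) := by rw [h]
      _ = (a * c) * (b * a) := by group
      _ = (c * a) * (b * a) := by rw [hS.c_central]
      _ = c * ((a * b) * a) := by group
      _ = c * ((c * (b * a)) * a) := by rw [h]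
      _ = (c * c) * (b * (a * a)) := by group
      _ = b * (a * a) := by rw [hS.c_sq, one_mul]

theorem sq_or (hS : Setting P c) (a : P) : a * a = 1 ∨ a * a = c :=
  hS.rad _ (sq_comm hS a)

/-- Conjugation moves an element at most by `c`. -/
theorem conj_or (hS : Setting P c) (d f : P) : f⁻¹ * d * f = d ∨ f⁻¹ * d * f = d * c := by
  rcases comm_or hS d f with h | h
  · left
    calc f⁻¹ * d * f = f⁻¹ * (d * f) := by group
      _ = f⁻¹ * (f * d) := by rw [h]
      _ = d := by group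
  · right
    calc f⁻¹ * d * f = f⁻¹ * (d * f) := by group
      _ = f⁻¹ * (c * (f * d)) := by rw [h]
      _ = f⁻¹ * ((c * f) * d) := by group
      _ = f⁻¹ * ((f * c) * d) := by rw [hS.c_central f]
      _ = (f⁻¹ * f) * (c * d) := by group
      _ = c * d := by simp
      _ = d * c := (hS.c_central d).symm

theorem normal_of_mem (hS : Setting P c) (Y : Subgroup P) (hc : c ∈ Y) : Y.Normal := by
  constructor
  intro y hy g
  rcases conj_or hS y g⁻¹ with h | h
  · simp only [inv_inv] at h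
    rw [h]; exact hy
  · simp only [inv_inv] at h
    rw [h]; exact Y.mul_mem hy hc

/-- The map `e ↦ e⁻¹ * γ e` modulo a subgroup containing `c`. -/
def Phi (hS : Setting P c) (γ : P ≃* P) (Y : Subgroup P) (hc : c ∈ Y) [Y.Normal] : P →* P ⧸ Y :=
  MonoidHom.mk' (fun e => ((e⁻¹ * γ e : P) : P ⧸ Y)) (by
    intro e f
    rw [← QuotientGroup.mk_mul, QuotientGroup.eq]
    have key : (e * f)⁻¹ * γ (e * f) = (f⁻¹ * (e⁻¹ * γ e) * f) * (f⁻¹ * γ f) := by
      rw [map_mul]; group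
    rw [key]
    rcases conj_or hS (e⁻¹ * γ e) f with h | h
    · rw [h]
      have : (e⁻¹ * γ e * (f⁻¹ * γ f))⁻¹ * (e⁻¹ * γ e * (f⁻¹ * γ f)) = 1 := by group
      rw [this]; exact Y.one_mem
    · rw [h]
      have : (e⁻¹ * γ e * c * (f⁻¹ * γ f)) = (e⁻¹ * γ e * (f⁻¹ * γ f)) * c := by
        rw [mul_assoc (e⁻¹ * γ e) c, ← hS.c_central (f⁻¹ * γ f)]; group
      have h2 : (e⁻¹ * γ e * (f⁻¹ * γ f))⁻¹ * (e⁻¹ * γ e * c * (f⁻¹ * γ f)) = c := by
        rw [this]; group
      have h3 : (e⁻¹ * γ e * c * (f⁻¹ * γ f))⁻¹ * (e⁻¹ * γ e * (f⁻¹ * γ f)) = c⁻¹ := by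
        rw [this]; group
      rw [cinv hS] at h3
      have h4 : (e⁻¹ * γ e * c * (f⁻¹ * γ f))⁻¹ ∈ Y ∨ True := Or.inr trivial
      rw [h3]; exact hc)

@[simp] theorem Phi_apply (hS : Setting P c) (γ : P ≃* P) (Y : Subgroup P) (hc : c ∈ Y) [Y.Normal] (e : P) :
    Phi hS γ Y hc e = ((e⁻¹ * γ e : P) : P ⧸ Y) := rfl

theorem mem_ker_Phi (hS : Setting P c) (γ : P ≃* P) (Y : Subgroup P) (hc : c ∈ Y) [Y.Normal] (e : P) :
    e ∈ (Phi hS γ Y hc).ker ↔ e⁻¹ * γ e ∈ Y := by
  rw [MonoidHom.mem_ker, Phi_apply, QuotientGroup.eq_one_iff]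

/-- The preimage in `P` of the image of `Phi`. -/
def RR (hS : Setting P c) (γ : P ≃* P) (Y : Subgroup P) (hc : c ∈ Y) [Y.Normal] : Subgroup P :=
  (Phi hS γ Y hc).range.comap (QuotientGroup.mk' Y)

theorem mem_RR (hS : Setting P c) (γ : P ≃* P) (Y : Subgroup P) (hc : c ∈ Y) [Y.Normal] (t : P) :
    t ∈ RR hS γ Y hc ↔ ∃ e : P, (e⁻¹ * γ e)⁻¹ * t ∈ Y := by
  constructor
  · rintro ⟨e, he⟩
    refine ⟨e, ?_⟩
    have := QuotientGroup.eq.1 he
    exact this
  · rintro ⟨e, he⟩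
    exact ⟨e, QuotientGroup.eq.2 he⟩

theorem Y_le_RR (hS : Setting P c) (γ : P ≃* P) (Y : Subgroup P) (hc : c ∈ Y) [Y.Normal] : Y ≤ RR hS γ Y hc := by
  intro y hy
  rw [mem_RR]
  refine ⟨1, ?_⟩
  simpa using hy

theorem card_RR_mul_ker [Finite P] (hS : Setting P c) (γ : P ≃* P) (Y : Subgroup P) (hc : c ∈ Y) [Y.Normal] :
    Nat.card (RR hS γ Y hc) * Nat.card (Phi hS γ Y hc).ker = Nat.card Y * Nat.card P := by
  set Φ := Phi hS γ Y hc with hΦ
  have h1 : (RR hS γ Y hc).index = Φ.range.index :=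
    Subgroup.index_comap_of_surjective _ (QuotientGroup.mk'_surjective Y)
  have h2 : Nat.card (RR hS γ Y hc) * (RR hS γ Y hc).index = Nat.card P := Subgroup.card_mul_index _
  have h3 : Nat.card Φ.range * Φ.range.index = Nat.card (P ⧸ Y) := Subgroup.card_mul_index _
  have h4 : Nat.card (P ⧸ Y) * Nat.card Y = Nat.card P := by
    rw [← Subgroup.index_eq_card, mul_comm]; exact Subgroup.card_mul_index Y
  have h5 : Nat.card Φ.ker * Φ.ker.index = Nat.card P := Subgroup.card_mul_index _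
  have h6 : Φ.ker.index = Nat.card Φ.range := Subgroup.index_ker Φ
  rw [h6] at h5
  have hpos : 0 < Φ.range.index := Nat.pos_of_ne_zero (Subgroup.FiniteIndex.index_ne_zero)
  have hP : 0 < Nat.card P := Nat.card_pos
  rw [h1] at h2
  have h7 : Nat.card (RR hS γ Y hc) = Nat.card Φ.range * Nat.card Y := by
    apply Nat.eq_of_mul_eq_mul_right hpos
    rw [h2, ← h4, ← h3]; ring
  rw [h7, mul_comm (Nat.card Φ.range), mul_assoc, mul_comm (Nat.card Φ.range), h5]

/-- The subgroup `C_γ` of elements moved at most by `c`. -/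
def CC (hS : Setting P c) (γ : P ≃* P) (hγ : γ c = c) : Subgroup P where
  carrier := {u | γ u = u ∨ γ u = u * c}
  one_mem' := by simp
  mul_mem' := by
    intro a b ha hb
    simp only [Set.mem_ofPred_eq, map_mul] at ha hb ⊢
    rcases ha with ha | ha <;> rcases hb with hb | hb <;> rw [ha, hb]
    · left; rfl
    · right; group
    · right
      calc a * c * b = a * (c * b) := by group
        _ = a * (b * c) := by rw [hS.c_central b]
        _ = a * b * c := by group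
    · left
      calc a * c * (b * c) = a * (c * b) * c := by group
        _ = a * (b * c) * c := by rw [hS.c_central b]
        _ = a * b * (c * c) := by group
        _ = a * b := by rw [hS.c_sq, mul_one]
  inv_mem' := by
    intro a ha
    simp only [Set.mem_ofPred_eq, map_inv] at ha ⊢
    rcases ha with ha | ha <;> rw [ha]
    · left; rfl
    · right
      rw [mul_inv_rev, cinv hS, hS.c_central a⁻¹]

theorem mem_CC (hS : Setting P c) (γ : P ≃* P) (hγ : γ c = c) (u : P) :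
    u ∈ CC hS γ hγ ↔ γ u = u ∨ γ u = u * c := Iff.rfl

/-- The two-element subgroup. -/
def ZZ (hS : Setting P c) : Subgroup P where
  carrier := {u | u = 1 ∨ u = c}
  one_mem' := Or.inl rfl
  mul_mem' := by
    intro a b ha hb
    rcases ha with rfl | rfl <;> rcases hb with rfl | rfl
    · left; simp
    · right; simp
    · right; simp
    · left; exact hS.c_sq
  inv_mem' := by
    intro a ha
    rcases ha with rfl | rfl
    · left; simp
    · right; exact cinv hS

theorem mem_ZZ (hS : Setting P c) (u : P) : u ∈ ZZ hS ↔ u = 1 ∨ u = c := Iff.rfl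

theorem c_mem_ZZ (hS : Setting P c) : c ∈ ZZ hS := Or.inr rfl

theorem card_ZZ [Finite P] (hS : Setting P c) : Nat.card (ZZ hS) = 2 := by
  classical
  have : (ZZ hS : Set P) = {1, c} := by
    ext u; simp [mem_ZZ]
  rw [show Nat.card (ZZ hS) = Nat.card ((ZZ hS : Set P)) from rfl, this, Nat.card_coe_set_eq,
    Set.ncard_pair]
  exact fun h => hS.c_ne h.symm

theorem ker_ZZ_eq_CC (hS : Setting P c) (γ : P ≃* P) (hγ : γ c = c) [(ZZ hS).Normal] :
    (Phi hS γ (ZZ hS) (c_mem_ZZ hS)).ker = CC hS γ hγ := by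
  ext e
  rw [mem_ker_Phi, mem_ZZ, mem_CC]
  constructor
  · rintro (h | h)
    · left
      have : γ e = e * (e⁻¹ * γ e) := by group
      rw [this, h, mul_one]
    · right
      have : γ e = e * (e⁻¹ * γ e) := by group
      rw [this, h]
  · rintro (h | h)
    · left; rw [h]; group
    · right; rw [h]; group

/-- `sgn` is invariant under automorphisms. -/
theorem sgn_aut (γ : P ≃* P) (a b : P) : sgn (γ a) (γ b) = sgn a b := by
  by_cases h : a * b = b * a
  · rw [sgn_of_comm h, sgn_of_comm (by rw [← map_mul, ← map_mul, h])]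
  · rw [sgn_of_not_comm h, sgn_of_not_comm (fun h' => h (γ.injective (by rw [map_mul, map_mul, h'])))]

theorem sgn_sq (a b : P) : sgn a b * sgn a b = 1 := by
  by_cases h : a * b = b * a
  · rw [sgn_of_comm h]; norm_num
  · rw [sgn_of_not_comm h]; norm_num

theorem sgn_one_right (hS : Setting P c) (a : P) : sgn a 1 = 1 := sgn_of_comm (by simp)

theorem sgn_c_right (hS : Setting P c) (a : P) : sgn a c = 1 := sgn_of_comm (hS.c_central a)

theorem sgn_inv_right (hS : Setting P c) (a b : P) : sgn a b⁻¹ = sgn a b := by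
  have h := hS.sgn_mul_right a b b⁻¹
  rw [mul_inv_cancel, sgn_one_right hS] at h
  have h2 := sgn_sq a b
  have : sgn a b * (sgn a b * sgn a b⁻¹) = sgn a b := by rw [← h, mul_one]
  rw [← mul_assoc, h2, one_mul] at this
  exact this

/-- Elements of `C_γ` commute with all `e⁻¹ * γ e`, for `γ` of any order. -/
theorem CC_comm_sigma (hS : Setting P c) (γ : P ≃* P) (hγ : γ c = c) {u : P} (hu : u ∈ CC hS γ hγ) (e : P) :
    u * (e⁻¹ * γ e) = (e⁻¹ * γ e) * u := by
  rw [← sgn_eq_one_iff]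
  rw [hS.sgn_mul_right, sgn_inv_right hS]
  have h1 : sgn u (γ e) = sgn (γ u) (γ e) := by
    rcases hu with h | h
    · rw [h]
    · rw [h, hS.sgn_mul_left, sgn_symm c, sgn_c_right hS, mul_one]
  rw [h1, sgn_aut, sgn_sq]

theorem card_le_of_cover [Finite P] (S K : Subgroup P) (e₀ : P)
    (h : ∀ e ∈ K, e ∈ S ∨ e₀⁻¹ * e ∈ S) : Nat.card K ≤ 2 * Nat.card S := by
  classical
  have hcov : (K : Set P) ⊆ (S : Set P) ∪ ((fun s => e₀ * s) '' (S : Set P)) := by
    intro e he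
    rcases h e he with h' | h'
    · exact Or.inl h'
    · exact Or.inr ⟨_, h', by group⟩
  have h1 := Set.ncard_le_ncard hcov (Set.toFinite _)
  have h2 := Set.ncard_union_le (S : Set P) ((fun s => e₀ * s) '' (S : Set P))
  have h3 : ((fun s => e₀ * s) '' (S : Set P)).ncard = (S : Set P).ncard :=
    Set.ncard_image_of_injective _ (mul_right_injective e₀)
  have h4 : (K : Set P).ncard = Nat.card K := rfl
  have h5 : (S : Set P).ncard = Nat.card S := rfl
  omega


/-- The fixed points of an automorphism. -/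
def FixS (β : P ≃* P) : Subgroup P where
  carrier := {s | β s = s}
  one_mem' := by simp
  mul_mem' := by
    intro a b ha hb
    simp only [Set.mem_ofPred_eq, map_mul] at ha hb ⊢
    rw [ha, hb]
  inv_mem' := by
    intro a ha
    simp only [Set.mem_ofPred_eq, map_inv] at ha ⊢
    rw [ha]

theorem mem_FixS (β : P ≃* P) (s : P) : s ∈ FixS β ↔ β s = s := Iff.rfl

theorem card_ker_comp_le {A : Type*} [Group A] [Finite A] (f g : A →* A) :
    Nat.card (f.comp g).ker ≤ Nat.card f.ker * Nat.card g.ker := by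
  classical
  have hk : (f.comp g).ker = f.ker.comap g := by
    ext a; simp [MonoidHom.mem_ker]
  rw [hk]
  let r : f.ker.comap g →* f.ker := g.subgroupComap f.ker
  have h1 : Nat.card r.ker * r.ker.index = Nat.card (f.ker.comap g) := Subgroup.card_mul_index _
  have h2 : r.ker.index = Nat.card r.range := Subgroup.index_ker r
  have h3 : Nat.card r.range ≤ Nat.card f.ker := Subgroup.card_le_card_group _
  have h4 : Nat.card r.ker ≤ Nat.card g.ker := by
    let i : r.ker → g.ker := fun a => ⟨(a.1.1 : A), by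
      have h := a.2
      rw [MonoidHom.mem_ker] at h ⊢
      have h' := congrArg Subtype.val h
      exact h'⟩
    apply Nat.card_le_card_of_injective i
    intro a b hab
    have : (a.1.1 : A) = b.1.1 := congrArg (fun x : g.ker => (x : A)) hab
    exact Subtype.ext (Subtype.ext this)
  rw [← h1, h2, mul_comm]
  exact Nat.mul_le_mul h3 h4

theorem hS_c_sq_aux' (hS : Setting P c) : c * c = 1 := hS.c_sq

/-- The standing hypotheses of the `E`-level lemma. -/
structure EHyp (c : P) (α β : P ≃* P) (e₀ : P) : Prop where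
  hS : Setting P c
  αc : α c = c
  βc : β c = c
  comm : ∀ a, α (β a) = β (α a)
  ββ : ∀ a, β (β a) = a
  α4 : ∀ a, α (α (α (α a))) = a
  Sab : ∀ s t, β s = s → β t = t → s * t = t * s
  s0 : β (e₀⁻¹ * α e₀) = e₀⁻¹ * α e₀
  s0sq : (e₀⁻¹ * α e₀) * (e₀⁻¹ * α e₀) = c
  e0 : β e₀ ≠ e₀
  cover : ∀ e, β (e⁻¹ * α e) = e⁻¹ * α e → β e = e ∨ β (e₀⁻¹ * e) = e₀⁻¹ * e

namespace EHyp

variable {α β : P ≃* P} {e₀ : P} (h : EHyp c α β e₀)
include h

theorem c_mem_S : c ∈ FixS β := h.βc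

theorem hS_c_sq_aux : c * c = 1 := h.hS.c_sq

theorem α_mem_S {s : P} (hs : β s = s) : β (α s) = α s := by
  rw [← h.comm, hs]

theorem sq_fixed_α (a : P) : α (a * a) = a * a := by
  rcases sq_or h.hS a with h' | h'
  · rw [h']; simp
  · rw [h']; exact h.αc

/-- 1a: `C_α ≤ S`. -/
theorem CC_le_S : CC h.hS α h.αc ≤ FixS β := by
  intro u hu
  have hsig : β (u⁻¹ * α u) = u⁻¹ * α u := by
    rcases hu with h1 | h1
    · rw [h1]; simp
    · rw [h1]
      have : u⁻¹ * (u * c) = c := by group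
      rw [this]; exact h.βc
  rcases h.cover u hsig with h1 | h1
  · exact h1
  · exfalso
    -- `u = e₀ t` with `t ∈ S`
    obtain ⟨t, ht⟩ : ∃ t, t = e₀⁻¹ * u := ⟨_, rfl⟩
    obtain ⟨s₀, hs₀⟩ : ∃ s₀, s₀ = e₀⁻¹ * α e₀ := ⟨_, rfl⟩
    rw [← ht] at h1
    have hs0 : β s₀ = s₀ := by rw [hs₀]; exact h.s0
    have hs0sq : s₀ * s₀ = c := by rw [hs₀]; exact h.s0sq
    have hue : u = e₀ * t := by rw [ht]; group
    have h2 : u⁻¹ * α u = s₀ * (t⁻¹ * α t) := by
      have hts : t⁻¹ * s₀ = s₀ * t⁻¹ := by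
        exact h.Sab t⁻¹ s₀ (by rw [map_inv, h1]) hs0
      calc u⁻¹ * α u = t⁻¹ * s₀ * α t := by rw [hue, map_mul, hs₀]; group
        _ = s₀ * t⁻¹ * α t := by rw [hts]
        _ = s₀ * (t⁻¹ * α t) := by group
    have hαt : β (α t) = α t := h.α_mem_S h1
    have hst : β (t⁻¹ * α t) = t⁻¹ * α t := by rw [map_mul, map_inv, h1, hαt]
    have h3 : (u⁻¹ * α u) * (u⁻¹ * α u) = c := by
      rw [h2]
      have h4 : (t⁻¹ * α t) * (t⁻¹ * α t) = 1 := by
        have h5 : t⁻¹ * α t = α t * t⁻¹ := h.Sab _ _ (by rw [map_inv, h1]) hαt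
        calc (t⁻¹ * α t) * (t⁻¹ * α t) = t⁻¹ * (α t * t⁻¹) * α t := by group
          _ = t⁻¹ * (t⁻¹ * α t) * α t := by rw [h5]
          _ = (t * t)⁻¹ * α (t * t) := by rw [map_mul]; group
          _ = 1 := by rw [h.sq_fixed_α t]; group
      calc (s₀ * (t⁻¹ * α t)) * (s₀ * (t⁻¹ * α t)) = s₀ * ((t⁻¹ * α t) * s₀) * (t⁻¹ * α t) := by group
        _ = s₀ * (s₀ * (t⁻¹ * α t)) * (t⁻¹ * α t) := by rw [h.Sab _ _ hst hs0]
        _ = (s₀ * s₀) * ((t⁻¹ * α t) * (t⁻¹ * α t)) := by group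
        _ = c := by rw [h4, hs0sq, mul_one]
    rcases hu with h6 | h6
    · rw [h6] at h3
      simp at h3
      exact h.hS.c_ne h3.symm
    · rw [h6] at h3
      have h7 : (u⁻¹ * (u * c)) * (u⁻¹ * (u * c)) = c * c := by group
      rw [h7, h.hS.c_sq] at h3
      exact h.hS.c_ne h3.symm

/-- 1b: `|C_α| ≤ 4`. -/
theorem card_CC_le [Finite P] : Nat.card (CC h.hS α h.αc) ≤ 4 := by
  classical
  have hN : (FixS β).Normal := normal_of_mem h.hS _ h.c_mem_S
  set S := FixS β with hSdef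
  set Φ := Phi h.hS α S h.c_mem_S with hΦ
  set T := RR h.hS α S h.c_mem_S with hT
  have h1 : Nat.card T * Nat.card Φ.ker = Nat.card S * Nat.card P := card_RR_mul_ker h.hS α S h.c_mem_S
  have h2 : Nat.card Φ.ker ≤ 2 * Nat.card S := by
    apply card_le_of_cover S Φ.ker e₀
    intro e he
    have := (mem_ker_Phi h.hS α S h.c_mem_S e).1 he
    exact h.cover e this
  have hSpos : 0 < Nat.card S := Nat.card_pos
  have hTpos : 0 < Nat.card T := Nat.card_pos
  have h3 : Nat.card P ≤ 2 * Nat.card T := by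
    have : Nat.card S * Nat.card P ≤ Nat.card S * (2 * Nat.card T) := by
      rw [← h1]
      calc Nat.card T * Nat.card Φ.ker ≤ Nat.card T * (2 * Nat.card S) := Nat.mul_le_mul_left _ h2
        _ = Nat.card S * (2 * Nat.card T) := by ring
    exact Nat.le_of_mul_le_mul_left this hSpos
  have hcT : c ∈ T := Y_le_RR h.hS α S h.c_mem_S h.c_mem_S
  have h4 := h.hS.card_mul_card_centralizer T hcT
  have h5 : Nat.card (Subgroup.centralizer (T : Set P)) ≤ 4 := by
    have : Nat.card T * Nat.card (Subgroup.centralizer (T : Set P)) ≤ Nat.card T * 4 := by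
      rw [h4]; omega
    exact Nat.le_of_mul_le_mul_left this hTpos
  have h6 : CC h.hS α h.αc ≤ Subgroup.centralizer (T : Set P) := by
    intro u hu
    rw [Subgroup.mem_centralizer_iff]
    intro t ht
    obtain ⟨e, he⟩ := (mem_RR h.hS α S h.c_mem_S t).1 ht
    have hu' : β u = u := h.CC_le_S hu
    have h7 := CC_comm_sigma h.hS α h.αc hu e
    have h8 : u * ((e⁻¹ * α e)⁻¹ * t) = ((e⁻¹ * α e)⁻¹ * t) * u := h.Sab _ _ hu' he
    have h9 : t = (e⁻¹ * α e) * ((e⁻¹ * α e)⁻¹ * t) := by group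
    rw [h9]
    calc (e⁻¹ * α e) * ((e⁻¹ * α e)⁻¹ * t) * u = (e⁻¹ * α e) * (((e⁻¹ * α e)⁻¹ * t) * u) := by group
      _ = (e⁻¹ * α e) * (u * ((e⁻¹ * α e)⁻¹ * t)) := by rw [h8]
      _ = ((e⁻¹ * α e) * u) * ((e⁻¹ * α e)⁻¹ * t) := by group
      _ = (u * (e⁻¹ * α e)) * ((e⁻¹ * α e)⁻¹ * t) := by rw [h7]
      _ = u * ((e⁻¹ * α e) * ((e⁻¹ * α e)⁻¹ * t)) := by group
  exact (Subgroup.card_le_of_le h6).trans h5

end EHyp

/-! The quotient `P ⧸ {1, c}`. -/

section Quot

variable (hS : Setting P c)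

theorem ZZ_normal : (ZZ hS).Normal := normal_of_mem hS _ (c_mem_ZZ hS)

attribute [local instance] ZZ_normal

theorem inv_c_mul (hS : Setting P c) (x : P) : (c * x)⁻¹ * x = c := by
  rw [← hS.c_central x]
  have : (x * c)⁻¹ * x = c⁻¹ := by group
  rw [this, cinv hS]

theorem mk_comm (a b : P ⧸ ZZ hS) : a * b = b * a := by
  induction a using QuotientGroup.induction_on with
  | H a =>
  induction b using QuotientGroup.induction_on with
  | H b =>
  rw [← QuotientGroup.mk_mul, ← QuotientGroup.mk_mul, QuotientGroup.eq]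
  rcases comm_or hS a b with h | h
  · rw [h]; simp [(ZZ hS).one_mem]
  · rw [h, inv_c_mul hS]
    exact c_mem_ZZ hS

theorem mk_sq (a : P ⧸ ZZ hS) : a * a = 1 := by
  induction a using QuotientGroup.induction_on with
  | H a =>
  rw [← QuotientGroup.mk_mul, QuotientGroup.eq_one_iff]
  exact sq_or hS a

/-- The map `v ↦ v⁻¹ * γ v` on `P ⧸ {1, c}`. -/
def psi (γ : P ≃* P) (hγ : γ c = c) : (P ⧸ ZZ hS) →* (P ⧸ ZZ hS) :=
  QuotientGroup.lift (ZZ hS) (Phi hS γ (ZZ hS) (c_mem_ZZ hS)) (by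
    intro x hx
    rw [mem_ker_Phi]
    rcases hx with rfl | rfl
    · simp [(ZZ hS).one_mem]
    · rw [hγ]; simp [(ZZ hS).one_mem])

@[simp] theorem psi_mk (γ : P ≃* P) (hγ : γ c = c) (e : P) :
    psi hS γ hγ (e : P ⧸ ZZ hS) = ((e⁻¹ * γ e : P) : P ⧸ ZZ hS) := rfl

theorem card_quot [Finite P] : Nat.card (P ⧸ ZZ hS) * 2 = Nat.card P := by
  have h := Subgroup.card_mul_index (ZZ hS)
  rw [card_ZZ, Subgroup.index_eq_card] at h
  omega

theorem card_ker_psi [Finite P] (γ : P ≃* P) (hγ : γ c = c) :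
    Nat.card (psi hS γ hγ).ker * 2 = Nat.card (CC hS γ hγ) := by
  have hcomap : (psi hS γ hγ).ker.comap (QuotientGroup.mk' (ZZ hS)) = CC hS γ hγ := by
    rw [← ker_ZZ_eq_CC hS γ hγ]
    ext e
    simp [MonoidHom.mem_ker, psi_mk]
  have h1 : (CC hS γ hγ).index = (psi hS γ hγ).ker.index := by
    rw [← hcomap]
    exact Subgroup.index_comap_of_surjective _ (QuotientGroup.mk'_surjective _)
  have h2 := Subgroup.card_mul_index (CC hS γ hγ)
  have h3 := Subgroup.card_mul_index (psi hS γ hγ).ker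
  have h4 := card_quot hS
  have hpos : 0 < (CC hS γ hγ).index := Nat.pos_of_ne_zero Subgroup.FiniteIndex.index_ne_zero
  apply Nat.eq_of_mul_eq_mul_right hpos
  rw [h2, h1, mul_assoc, mul_comm 2, ← mul_assoc, h3]
  exact h4

end Quot

attribute [local instance] ZZ_normal

theorem psi_psi (hS : Setting P c) (γ : P ≃* P) (hγ : γ c = c) (e : P) :
    psi hS γ hγ (psi hS γ hγ (e : P ⧸ ZZ hS)) = ((e * γ (γ e) : P) : P ⧸ ZZ hS) := by
  rw [psi_mk, psi_mk]
  have h1 : (e⁻¹ * γ e)⁻¹ * γ (e⁻¹ * γ e) = (γ e)⁻¹ * e * ((γ e)⁻¹ * γ (γ e)) := by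
    rw [map_mul, map_inv]; group
  rw [h1, QuotientGroup.mk_mul, QuotientGroup.mk_mul, QuotientGroup.mk_mul, QuotientGroup.mk_mul,
    QuotientGroup.mk_inv]
  set A : P ⧸ ZZ hS := ((γ e : P) : P ⧸ ZZ hS)
  set E : P ⧸ ZZ hS := ((e : P) : P ⧸ ZZ hS)
  set B : P ⧸ ZZ hS := ((γ (γ e) : P) : P ⧸ ZZ hS)
  have hA : A⁻¹ = A := inv_eq_of_mul_eq_one_left (mk_sq hS A)
  rw [hA, mk_comm hS A E, mul_assoc, ← mul_assoc A A B, mk_sq hS A, one_mul]

/-- The kernel of the fourth iterate of a map is bounded by the fourth power of the kernel. -/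
theorem card_quot_le [Finite P] (hS : Setting P c) (γ : P ≃* P) (hγ : γ c = c)
    (h4 : ∀ a, γ (γ (γ (γ a))) = a) :
    Nat.card (P ⧸ ZZ hS) ≤ Nat.card (psi hS γ hγ).ker ^ 4 := by
  set ψ := psi hS γ hγ with hψ
  set ψ2 := ψ.comp ψ with hψ2
  set ψ4 := ψ2.comp ψ2 with hψ4
  have htop : ψ4.ker = ⊤ := by
    rw [eq_top_iff]
    intro v _
    induction v using QuotientGroup.induction_on with
    | H e =>
    rw [MonoidHom.mem_ker]
    change ψ (ψ (ψ (ψ (e : P ⧸ ZZ hS)))) = 1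
    rw [hψ, psi_psi, psi_psi, map_mul γ, map_mul γ, h4, QuotientGroup.mk_mul, QuotientGroup.mk_mul,
      QuotientGroup.mk_mul]
    set A : P ⧸ ZZ hS := ((γ (γ e) : P) : P ⧸ ZZ hS)
    set E : P ⧸ ZZ hS := ((e : P) : P ⧸ ZZ hS)
    have h1 : E * A * (A * E) = E * (A * A) * E := by group
    rw [h1, mk_sq hS A, mul_one, mk_sq hS E]
  have h1 : Nat.card (P ⧸ ZZ hS) = Nat.card ψ4.ker := by
    rw [htop]; exact (Nat.card_congr Subgroup.topEquiv.toEquiv).symm
  have h2 := card_ker_comp_le ψ2 ψ2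
  have h3 := card_ker_comp_le ψ ψ
  rw [h1]
  calc Nat.card ψ4.ker ≤ Nat.card ψ2.ker * Nat.card ψ2.ker := h2
    _ ≤ (Nat.card ψ.ker * Nat.card ψ.ker) * (Nat.card ψ.ker * Nat.card ψ.ker) := Nat.mul_le_mul h3 h3
    _ = Nat.card ψ.ker ^ 4 := by ring

theorem cover_of_card [Finite P] {Y X : Subgroup P} (hYX : Y ≤ X) (hc : Nat.card X = 2 * Nat.card Y)
    {t : P} (ht : t ∈ X) (ht' : t ∉ Y) {u : P} (hu : u ∈ X) : u ∈ Y ∨ t⁻¹ * u ∈ Y := by
  have h1 : Nat.card (Y.subgroupOf X) = Nat.card Y :=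
    Nat.card_congr (Subgroup.subgroupOfEquivOfLe hYX).toEquiv
  have h2 := Subgroup.card_mul_index (Y.subgroupOf X)
  have h3 : (Y.subgroupOf X).index = 2 := by
    rw [h1, hc] at h2
    have hpos : 0 < Nat.card Y := Nat.card_pos
    nlinarith
  by_cases huY : u ∈ Y
  · exact Or.inl huY
  · right
    have h4 := (Subgroup.mul_mem_iff_of_index_two h3 (a := ⟨t, ht⟩⁻¹) (b := ⟨u, hu⟩)).2 (by
      simp only [inv_mem_iff, Subgroup.mem_subgroupOf]
      exact iff_of_false ht' huY)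
    simpa [Subgroup.mem_subgroupOf] using h4

namespace EHyp

variable {α β : P ≃* P} {e₀ : P} (h : EHyp c α β e₀)
include h

theorem card_le_32 [Finite P] : Nat.card P ≤ 32 := by
  have h1 := card_quot_le h.hS α h.αc h.α4
  have h2 := card_ker_psi h.hS α h.αc
  have h3 := h.card_CC_le
  have h4 := card_quot h.hS
  have h5 : Nat.card (psi h.hS α h.αc).ker ≤ 2 := by omega
  have h6 : Nat.card (psi h.hS α h.αc).ker ^ 4 ≤ 2 ^ 4 := Nat.pow_le_pow_left h5 4
  omega

theorem tau_fix (a : P) : β (a⁻¹ * β a) = (a⁻¹ * β a)⁻¹ := by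
  rw [map_mul, map_inv, h.ββ]; group

theorem tau_mem_CC (a : P) : a⁻¹ * β a ∈ CC h.hS β h.βc := by
  rw [mem_CC, h.tau_fix]
  rcases sq_or h.hS (a⁻¹ * β a) with h1 | h1
  · left
    exact inv_eq_of_mul_eq_one_left h1
  · right
    apply inv_eq_of_mul_eq_one_right
    rw [← mul_assoc, h1, h.hS.c_sq]

theorem ZZ_le_S : ZZ h.hS ≤ FixS β := by
  rintro u (rfl | rfl)
  · exact (FixS β).one_mem
  · exact h.βc

theorem ZZ_le_CC (γ : P ≃* P) (hγ : γ c = c) : ZZ h.hS ≤ CC h.hS γ hγ := by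
  rintro u (rfl | rfl)
  · exact (CC h.hS γ hγ).one_mem
  · left; exact hγ

theorem S_le_centralizer : (FixS β : Subgroup P) ≤ Subgroup.centralizer (FixS β : Set P) := by
  intro s hs
  rw [Subgroup.mem_centralizer_iff]
  intro t ht
  exact h.Sab t s ht hs

theorem card_S_sq_le [Finite P] : Nat.card (FixS β) * Nat.card (FixS β) ≤ 2 * Nat.card P := by
  rw [← h.hS.card_mul_card_centralizer (FixS β) h.c_mem_S]
  exact Nat.mul_le_mul_left _ (Subgroup.card_le_of_le h.S_le_centralizer)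

theorem card_N_mul_C [Finite P] :
    Nat.card (RR h.hS β (ZZ h.hS) (c_mem_ZZ h.hS)) * Nat.card (CC h.hS β h.βc) = 2 * Nat.card P := by
  have h1 := card_RR_mul_ker h.hS β (ZZ h.hS) (c_mem_ZZ h.hS)
  rw [ker_ZZ_eq_CC h.hS β h.βc, card_ZZ] at h1
  exact h1

theorem N_le_C : RR h.hS β (ZZ h.hS) (c_mem_ZZ h.hS) ≤ CC h.hS β h.βc := by
  intro t ht
  obtain ⟨e, he⟩ := (mem_RR h.hS β _ _ t).1 ht
  have h1 : t = (e⁻¹ * β e) * ((e⁻¹ * β e)⁻¹ * t) := by group
  rw [h1]
  exact (CC h.hS β h.βc).mul_mem (h.tau_mem_CC e) (h.ZZ_le_CC β h.βc he)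

theorem S_le_C : FixS β ≤ CC h.hS β h.βc := fun _ hs => Or.inl hs

theorem card_C_le [Finite P] : Nat.card (CC h.hS β h.βc) ≤ 2 * Nat.card (FixS β) := by
  by_cases hex : ∃ a ∈ CC h.hS β h.βc, a ∉ FixS β
  · obtain ⟨a, ha, ha'⟩ := hex
    apply card_le_of_cover (FixS β) _ a
    intro e he
    by_cases he' : e ∈ FixS β
    · exact Or.inl he'
    · right
      have ha2 : β a = a * c := ha.resolve_left ha'
      have he2 : β e = e * c := he.resolve_left he'
      rw [mem_FixS, map_mul, map_inv, ha2, he2]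
      have hce : c * e = e * c := (h.hS.c_central e).symm
      calc (a * c)⁻¹ * (e * c) = c⁻¹ * a⁻¹ * (e * c) := by group
        _ = c * a⁻¹ * (e * c) := by rw [cinv h.hS]
        _ = (c * a⁻¹) * (c * e) := by rw [hce]
        _ = (a⁻¹ * c) * (c * e) := by rw [h.hS.c_central a⁻¹]
        _ = a⁻¹ * (c * c) * e := by group
        _ = a⁻¹ * e := by rw [h.hS.c_sq, mul_one]
  · push Not at hex
    have : CC h.hS β h.βc ≤ FixS β := hex
    have := Subgroup.card_le_of_le this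
    omega

theorem s0_not_mem_N : e₀⁻¹ * α e₀ ∉ RR h.hS β (ZZ h.hS) (c_mem_ZZ h.hS) := by
  intro hs
  obtain ⟨a, ha⟩ := (mem_RR h.hS β _ _ _).1 hs
  obtain ⟨τ, hτ⟩ : ∃ τ, τ = a⁻¹ * β a := ⟨_, rfl⟩
  obtain ⟨s₀, hs₀⟩ : ∃ s₀, s₀ = e₀⁻¹ * α e₀ := ⟨_, rfl⟩
  rw [← hτ, ← hs₀] at ha
  have hs0 : β s₀ = s₀ := by rw [hs₀]; exact h.s0
  have hs0sq : s₀ * s₀ = c := by rw [hs₀]; exact h.s0sq
  have hτfix : β τ = τ⁻¹ := by rw [hτ]; exact h.tau_fix a
  -- `s₀ = τ z` with `z ∈ Z`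
  have hτs : β τ = τ := by
    rcases ha with hz | hz
    · have : τ = s₀ := by
        have := inv_mul_eq_one.1 hz
        exact this
      rw [this, hs0]
    · have h2 : τ = s₀ * c := by
        have h3 : s₀ = τ * c := by rw [← hz]; group
        rw [h3, mul_assoc, h.hS.c_sq, mul_one]
      rw [h2, map_mul, hs0, h.βc]
  have h1 : τ * τ = 1 := by
    have : τ⁻¹ = τ := by rw [← hτfix, hτs]
    calc τ * τ = τ⁻¹ * τ := by rw [this]
      _ = 1 := by group
  have h2 : s₀ * s₀ = 1 := by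
    rcases ha with hz | hz
    · have : τ = s₀ := inv_mul_eq_one.1 hz
      rw [← this, h1]
    · have h3 : s₀ = τ * c := by rw [← hz]; group
      rw [h3]
      calc τ * c * (τ * c) = τ * (c * τ) * c := by group
        _ = τ * (τ * c) * c := by rw [h.hS.c_central τ]
        _ = (τ * τ) * (c * c) := by group
        _ = 1 := by rw [h1, h.hS.c_sq, mul_one]
  rw [hs0sq] at h2
  exact h.hS.c_ne h2

/-- In the case `|C| = 16`. -/
theorem no_case_16 [Finite P] (hP : Nat.card P = 32) (hC : Nat.card (CC h.hS β h.βc) = 16) : False := by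
  classical
  set N := RR h.hS β (ZZ h.hS) (c_mem_ZZ h.hS) with hN
  have h1 : Nat.card N * 16 = 64 := by
    have := h.card_N_mul_C
    rw [hC, hP] at this
    exact this
  have hN4 : Nat.card N = 4 := by omega
  have hS8 : Nat.card (FixS β) = 8 := by
    have h2 := h.card_C_le
    have h3 := h.card_S_sq_le
    rw [hC] at h2
    rw [hP] at h3
    nlinarith
  have hcent : Subgroup.centralizer (FixS β : Set P) = FixS β := by
    symm
    apply Subgroup.eq_of_le_of_card_ge h.S_le_centralizer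
    have h4 := h.hS.card_mul_card_centralizer (FixS β) h.c_mem_S
    rw [hS8, hP] at h4
    rw [hS8]
    omega
  -- `τ a` centralises `S`
  have hτS : ∀ a : P, β (a⁻¹ * β a) = a⁻¹ * β a := by
    intro a
    have : a⁻¹ * β a ∈ Subgroup.centralizer (FixS β : Set P) := by
      rw [Subgroup.mem_centralizer_iff]
      intro s hs
      have hs' : β s = s := hs
      rw [← sgn_eq_one_iff, h.hS.sgn_mul_right, sgn_inv_right h.hS]
      have h5 : sgn s (β a) = sgn s a := by
        have := sgn_aut β s a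
        rw [hs'] at this
        exact this
      rw [h5, sgn_sq]
    rw [hcent] at this
    exact this
  have hτ1 : ∀ a : P, (a⁻¹ * β a) * (a⁻¹ * β a) = 1 := by
    intro a
    have h5 := h.tau_fix a
    rw [hτS a] at h5
    calc (a⁻¹ * β a) * (a⁻¹ * β a) = (a⁻¹ * β a)⁻¹ * (a⁻¹ * β a) := by
          nth_rewrite 1 [h5]; rfl
      _ = 1 := by group
  -- `a` commutes with `τ a`
  have hcomm : ∀ a : P, a * (a⁻¹ * β a) = (a⁻¹ * β a) * a := by
    intro a
    obtain ⟨τ, hτ⟩ : ∃ τ, τ = a⁻¹ * β a := ⟨_, rfl⟩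
    have hτ1' : τ * τ = 1 := by rw [hτ]; exact hτ1 a
    rw [← hτ]
    have hβa : β a = a * τ := by rw [hτ]; group
    have hsq : β (a * a) = a * a := by
      rcases sq_or h.hS a with h6 | h6
      · rw [h6]; simp
      · rw [h6]; exact h.βc
    rw [map_mul, hβa] at hsq
    -- `a τ a τ = a a`
    have h7 : τ * a * τ = a := by
      have : a * (τ * a * τ) = a * a := by
        rw [← hsq]; group
      exact mul_left_cancel this
    calc a * τ = (τ * a * τ) * τ := by rw [h7]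
      _ = τ * a * (τ * τ) := by group
      _ = τ * a := by rw [hτ1', mul_one]
  -- choose `t₀`
  have hZN : ZZ h.hS ≤ N := Y_le_RR h.hS β (ZZ h.hS) (c_mem_ZZ h.hS)
  have hcardZN : Nat.card N = 2 * Nat.card (ZZ h.hS) := by rw [card_ZZ, hN4]
  obtain ⟨t₀, ht₀, ht₀'⟩ : ∃ t₀ ∈ N, t₀ ∉ ZZ h.hS := by
    by_contra hcon
    push Not at hcon
    have := Subgroup.card_le_of_le (show N ≤ ZZ h.hS from hcon)
    rw [hN4, card_ZZ] at this
    omega
  obtain ⟨a₀, ha₀⟩ := (mem_RR h.hS β _ _ _).1 ht₀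
  have hcentral : ∀ b : P, b * t₀ = t₀ * b := by
    intro b
    by_cases hb : b ∈ CC h.hS β h.βc
    · -- `b` commutes with `τ a₀` and with the central part
      have h8 := CC_comm_sigma h.hS β h.βc hb a₀
      have h9 : t₀ = (a₀⁻¹ * β a₀) * ((a₀⁻¹ * β a₀)⁻¹ * t₀) := by group
      rw [h9]
      obtain ⟨z, hz⟩ : ∃ z, z = (a₀⁻¹ * β a₀)⁻¹ * t₀ := ⟨_, rfl⟩
      rw [← hz] at ha₀ ⊢
      have hzb : b * z = z * b := by
        rcases ha₀ with rfl | rfl
        · simp
        · exact h.hS.c_central b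
      calc b * (a₀⁻¹ * β a₀ * z) = (b * (a₀⁻¹ * β a₀)) * z := by group
        _ = ((a₀⁻¹ * β a₀) * b) * z := by rw [h8]
        _ = (a₀⁻¹ * β a₀) * (b * z) := by group
        _ = (a₀⁻¹ * β a₀) * (z * b) := by rw [hzb]
        _ = a₀⁻¹ * β a₀ * z * b := by group
    · -- `τ b ∉ Z`
      have hτb : b⁻¹ * β b ∉ ZZ h.hS := by
        intro hmem
        apply hb
        rcases hmem with h9 | h9
        · left
          have : b⁻¹ * β b = 1 := h9
          exact (inv_mul_eq_one.1 this).symm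
        · right
          calc β b = b * (b⁻¹ * β b) := by group
            _ = b * c := by rw [h9]
      have hτbN : b⁻¹ * β b ∈ N := by
        rw [hN, mem_RR]
        exact ⟨b, by simp [(ZZ h.hS).one_mem]⟩
      have h10 := (cover_of_card hZN hcardZN ht₀ ht₀' hτbN).resolve_left hτb
      -- `b` commutes with `τ b`
      have h11 := hcomm b
      obtain ⟨z, hz⟩ : ∃ z, z = t₀⁻¹ * (b⁻¹ * β b) := ⟨_, rfl⟩
      rw [← hz] at h10
      have hzb : b * z = z * b := by
        rcases h10 with rfl | rfl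
        · simp
        · exact h.hS.c_central b
      have h12 : b⁻¹ * β b = t₀ * z := by rw [hz]; group
      rw [h12] at h11
      have h13 : b * t₀ * z = t₀ * b * z := by
        calc b * t₀ * z = b * (t₀ * z) := by group
          _ = t₀ * z * b := h11
          _ = t₀ * (z * b) := by group
          _ = t₀ * (b * z) := by rw [hzb]
          _ = t₀ * b * z := by group
      exact mul_right_cancel h13
  exact ht₀' (h.hS.rad t₀ (fun b => (hcentral b).symm))

theorem card_ne_32 [Finite P] : Nat.card P ≠ 32 := by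
  intro hP
  have h1 := h.card_N_mul_C
  have h2 := h.card_C_le
  have h3 := h.card_S_sq_le
  have h4 : Nat.card (RR h.hS β (ZZ h.hS) (c_mem_ZZ h.hS)) ≤ Nat.card (CC h.hS β h.βc) :=
    Subgroup.card_le_of_le h.N_le_C
  rw [hP] at h1 h3
  have hS8 : Nat.card (FixS β) ≤ 8 := by nlinarith
  have hC16 : Nat.card (CC h.hS β h.βc) ≤ 16 := by omega
  have hC8 : 8 ≤ Nat.card (CC h.hS β h.βc) := by
    by_contra hlt
    push Not at hlt
    have : Nat.card (CC h.hS β h.βc) ≤ 7 := by omega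
    nlinarith
  have hdvd : Nat.card (CC h.hS β h.βc) ∣ 64 := ⟨_, by rw [mul_comm]; exact h1.symm⟩
  have hcases : Nat.card (CC h.hS β h.βc) = 8 ∨ Nat.card (CC h.hS β h.βc) = 16 := by
    obtain ⟨m, hm⟩ : ∃ m, m = Nat.card (CC h.hS β h.βc) := ⟨_, rfl⟩
    rw [← hm] at hC16 hC8 hdvd ⊢
    interval_cases m <;> first | omega | (exfalso; revert hdvd; decide)
  rcases hcases with hC | hC
  · -- `N = C ⊇ S`
    have hN : Nat.card (RR h.hS β (ZZ h.hS) (c_mem_ZZ h.hS)) = 8 := by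
      rw [hC] at h1; omega
    have heq := Subgroup.eq_of_le_of_card_ge h.N_le_C (by rw [hC, hN])
    apply h.s0_not_mem_N
    rw [heq]
    exact h.S_le_C h.s0
  · exact h.no_case_16 hP hC

theorem s0_not_mem_ZZ : e₀⁻¹ * α e₀ ∉ ZZ h.hS := by
  rintro (h1 | h1)
  · have := h.s0sq
    rw [h1, one_mul] at this
    exact h.hS.c_ne this.symm
  · have := h.s0sq
    rw [h1, h.hS.c_sq] at this
    exact h.hS.c_ne this.symm

theorem card_eq_8 [Finite P] (hcard : ∃ n : ℕ, Nat.card P = 2 ^ (2 * n + 1)) : Nat.card P = 8 := by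
  obtain ⟨n, hn⟩ := hcard
  have h1 := h.card_le_32
  have h2 := h.card_ne_32
  have hn2 : n ≤ 2 := by
    by_contra hlt
    push Not at hlt
    have : 2 ^ (2 * 3 + 1) ≤ 2 ^ (2 * n + 1) := Nat.pow_le_pow_right (by norm_num) (by omega)
    omega
  interval_cases n
  · exfalso
    have h3 : ZZ h.hS = ⊤ := by
      apply Subgroup.eq_top_of_card_eq
      rw [card_ZZ, hn]; norm_num
    apply h.s0_not_mem_ZZ
    rw [h3]; trivial
  · rw [hn]; norm_num
  · exfalso; apply h2; rw [hn]; norm_num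

theorem card_S_eq_4 [Finite P] (hP : Nat.card P = 8) : Nat.card (FixS β) = 4 := by
  have h1 := h.card_S_sq_le
  rw [hP] at h1
  have hle : Nat.card (FixS β) ≤ 4 := by nlinarith
  have h2 := h.hS.card_mul_card_centralizer (FixS β) h.c_mem_S
  rw [hP] at h2
  have hdvd : Nat.card (FixS β) ∣ 16 := ⟨_, h2.symm⟩
  have hZS : 2 < Nat.card (FixS β) := by
    have h3 : Nat.card (ZZ h.hS) ≤ Nat.card (FixS β) := Subgroup.card_le_of_le h.ZZ_le_S
    rw [card_ZZ] at h3
    by_contra hlt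
    have h4 : Nat.card (FixS β) = 2 := by omega
    have h5 : ZZ h.hS = FixS β := by
      apply Subgroup.eq_of_le_of_card_ge h.ZZ_le_S
      rw [h4, card_ZZ]
    apply h.s0_not_mem_ZZ
    rw [h5]; exact h.s0
  obtain ⟨m, hm⟩ : ∃ m, m = Nat.card (FixS β) := ⟨_, rfl⟩
  rw [← hm] at hle hdvd hZS ⊢
  interval_cases m
  · exfalso; revert hdvd; decide
  · rfl

theorem S_le_CC [Finite P] (hP : Nat.card P = 8) : FixS β ≤ CC h.hS α h.αc := by
  have h4 := h.card_S_eq_4 hP
  have hcard : Nat.card (FixS β) = 2 * Nat.card (ZZ h.hS) := by rw [h4, card_ZZ]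
  have hs0 : e₀⁻¹ * α e₀ ∈ FixS β := h.s0
  have h0 := h.s0_not_mem_ZZ
  obtain ⟨s₀, hs₀⟩ : ∃ s₀, s₀ = e₀⁻¹ * α e₀ := ⟨_, rfl⟩
  rw [← hs₀] at hs0 h0
  have hsq : s₀ * s₀ = c := by rw [hs₀]; exact h.s0sq
  -- `α s₀ ∈ s₀ Z`
  have hαs0 : α s₀ ∈ FixS β := h.α_mem_S hs0
  have hαsq : α s₀ * α s₀ = c := by rw [← map_mul, hsq, h.αc]
  have h1 : α s₀ ∉ ZZ h.hS := by
    rintro (h2 | h2)
    · rw [h2, one_mul] at hαsq
      exact h.hS.c_ne hαsq.symm
    · rw [h2, h.hS.c_sq] at hαsq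
      exact h.hS.c_ne hαsq.symm
  have h2 := (cover_of_card h.ZZ_le_S hcard hs0 h0 hαs0).resolve_left h1
  have hs0CC : s₀ ∈ CC h.hS α h.αc := by
    rcases h2 with h3 | h3
    · left
      exact (inv_mul_eq_one.1 h3).symm
    · right
      calc α s₀ = s₀ * (s₀⁻¹ * α s₀) := by group
        _ = s₀ * c := by rw [h3]
  intro s hs
  rcases cover_of_card h.ZZ_le_S hcard hs0 h0 hs with h3 | h3
  · exact h.ZZ_le_CC α h.αc h3
  · have h5 : s = s₀ * (s₀⁻¹ * s) := by group
    rw [h5]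
    exact (CC h.hS α h.αc).mul_mem hs0CC (h.ZZ_le_CC α h.αc h3)

/-- The square of `α` acts trivially modulo `c`. -/
theorem alpha_sq [Finite P] (hP : Nat.card P = 8) (a : P) : α (α a) = a ∨ α (α a) = a * c := by
  have h4 := h.card_S_eq_4 hP
  have hcard : Nat.card (⊤ : Subgroup P) = 2 * Nat.card (FixS β) := by
    rw [h4, Subgroup.card_top, hP]
  have hSCC := h.S_le_CC hP
  let γ : P ≃* P := α.trans α
  have hγc : γ c = c := by
    change α (α c) = c
    rw [h.αc, h.αc]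
  have hγ : ∀ x, γ x = α (α x) := fun _ => rfl
  have hS2 : FixS β ≤ CC h.hS γ hγc := by
    intro s hs
    rcases hSCC hs with h1 | h1
    · left
      rw [hγ, h1, h1]
    · left
      rw [hγ, h1, map_mul, h1, h.αc, mul_assoc, h.hS.c_sq, mul_one]
  have he0 : e₀ ∈ CC h.hS γ hγc := by
    have hs0 : e₀⁻¹ * α e₀ ∈ FixS β := h.s0
    have h1 : α e₀ = e₀ * (e₀⁻¹ * α e₀) := by group
    obtain ⟨s₀, hs₀⟩ : ∃ s₀, s₀ = e₀⁻¹ * α e₀ := ⟨_, rfl⟩
    rw [← hs₀] at hs0 h1
    have hsq : s₀ * s₀ = c := by rw [hs₀]; exact h.s0sq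
    rw [mem_CC, hγ, h1, map_mul, h1]
    rcases hSCC hs0 with h2 | h2
    · right
      rw [h2, mul_assoc, hsq]
    · left
      rw [h2, mul_assoc, ← mul_assoc s₀ s₀, hsq, h.hS.c_sq, mul_one]
  have hcov := cover_of_card (Y := FixS β) (X := ⊤) le_top hcard (t := e₀) trivial h.e0 (u := a) trivial
  have : a ∈ CC h.hS γ hγc := by
    rcases hcov with h1 | h1
    · exact hS2 h1
    · have h5 : a = e₀ * (e₀⁻¹ * a) := by group
      rw [h5]
      exact (CC h.hS γ hγc).mul_mem he0 (hS2 h1)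
  exact this

/-- A fixed non-central involution forces `α` to act trivially modulo `c`. -/
theorem alpha_triv [Finite P] (hP : Nat.card P = 8) {t : P} (ht : α t = t) (ht2 : t * t = 1)
    (ht1 : t ≠ 1) (htc : t ≠ c) (a : P) : α a = a ∨ α a = a * c := by
  have h4 := h.card_S_eq_4 hP
  have hcard : Nat.card (⊤ : Subgroup P) = 2 * Nat.card (FixS β) := by
    rw [h4, Subgroup.card_top, hP]
  have hcard2 : Nat.card (FixS β) = 2 * Nat.card (ZZ h.hS) := by rw [h4, card_ZZ]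
  have hSCC := h.S_le_CC hP
  have htS : t ∉ FixS β := by
    intro hts
    have hs0 : e₀⁻¹ * α e₀ ∈ FixS β := h.s0
    have h0 := h.s0_not_mem_ZZ
    have hsq := h.s0sq
    obtain ⟨s₀, hs₀⟩ : ∃ s₀, s₀ = e₀⁻¹ * α e₀ := ⟨_, rfl⟩
    rw [← hs₀] at hs0 h0 hsq
    rcases cover_of_card h.ZZ_le_S hcard2 hs0 h0 hts with h1 | h1
    · rcases h1 with h1 | h1
      · exact ht1 h1
      · exact htc h1
    · -- `t = s₀ z`
      have h5 : t = s₀ * (s₀⁻¹ * t) := by group
      obtain ⟨z, hz⟩ : ∃ z, z = s₀⁻¹ * t := ⟨_, rfl⟩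
      rw [← hz] at h1 h5
      have h6 : t * t = c := by
        rw [h5]
        rcases h1 with h7 | h7 <;> rw [h7]
        · simpa using hsq
        · calc s₀ * c * (s₀ * c) = s₀ * (c * s₀) * c := by group
            _ = s₀ * (s₀ * c) * c := by rw [h.hS.c_central s₀]
            _ = (s₀ * s₀) * (c * c) := by group
            _ = c := by rw [hsq, h.hS.c_sq, mul_one]
      rw [ht2] at h6
      exact h.hS.c_ne h6.symm
  have hcov := cover_of_card (Y := FixS β) (X := ⊤) le_top hcard (t := t) trivial htS (u := a) trivial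
  have htCC : t ∈ CC h.hS α h.αc := Or.inl ht
  have : a ∈ CC h.hS α h.αc := by
    rcases hcov with h1 | h1
    · exact hSCC h1
    · have h5 : a = t * (t⁻¹ * a) := by group
      rw [h5]
      exact (CC h.hS α h.αc).mul_mem htCC (hSCC h1)
  exact this

end EHyp


/-- A `2`-element acting on `P ⧸ S` has a nontrivial fixed point. -/
theorem exists_fixed_not_mem [Finite P] (hS : Setting P c) (α : P ≃* P) (S : Subgroup P)
    (hc : c ∈ S) (hαS : ∀ s ∈ S, α s ∈ S) (a : ℕ) (hα : ∀ e, α^[2 ^ a] e = e)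
    (hcard : ∃ n, Nat.card P = 2 ^ n) (hne : ∃ e, e ∉ S) :
    ∃ e, e ∉ S ∧ e⁻¹ * α e ∈ S := by
  classical
  have hN : S.Normal := normal_of_mem hS S hc
  let : Fintype (P ⧸ S) := Fintype.ofFinite _
  let f : Function.End (P ⧸ S) := ⇑(QuotientGroup.map S S α.toMonoidHom (fun s hs => hαS s hs))
  have hfmk : ∀ e : P, f (e : P ⧸ S) = ((α e : P) : P ⧸ S) := fun e => rfl
  have hiter : ∀ (n : ℕ) (e : P), (f ^ n) (e : P ⧸ S) = ((α^[n] e : P) : P ⧸ S) := by
    intro n
    induction n with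
    | zero => intro e; rfl
    | succ n ih =>
      intro e
      rw [pow_succ, Function.iterate_succ_apply]
      change (f ^ n) (f (e : P ⧸ S)) = _
      rw [hfmk, ih]
  have hfpow : f ^ 2 ^ a = 1 := by
    funext v
    induction v using QuotientGroup.induction_on with
    | H e =>
    rw [hiter, hα]
    rfl
  haveI : Fact (Nat.Prime 2) := ⟨Nat.prime_two⟩
  have hmod := Equiv.Perm.card_fixedPoints_modEq (α := P ⧸ S) (f := f) (p := 2) (n := a) hfpow
  have hcard2 : 2 ∣ Fintype.card (P ⧸ S) := by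
    rw [← Nat.card_eq_fintype_card, ← Subgroup.index_eq_card]
    obtain ⟨n, hn⟩ := hcard
    have hdvd : S.index ∣ 2 ^ n := by
      rw [← hn]; exact Subgroup.index_dvd_card S
    obtain ⟨j, -, hj⟩ := (Nat.dvd_prime_pow Nat.prime_two).1 hdvd
    rw [hj]
    cases j with
    | zero =>
      exfalso
      obtain ⟨e, he⟩ := hne
      have : S = ⊤ := Subgroup.index_eq_one.1 (by rw [hj]; rfl)
      rw [this] at he
      exact he trivial
    | succ j => exact dvd_pow_self 2 (by omega)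
  have hfix : (1 : P ⧸ S) ∈ f.fixedPoints := by
    change f 1 = 1
    exact map_one (QuotientGroup.map S S α.toMonoidHom (fun s hs => hαS s hs))
  have hcard3 : 1 < Fintype.card f.fixedPoints := by
    have h1 : 0 < Fintype.card f.fixedPoints := Fintype.card_pos_iff.2 ⟨⟨1, hfix⟩⟩
    have h2 : 2 ∣ Fintype.card f.fixedPoints := by
      have := (Nat.ModEq.dvd_iff hmod (dvd_refl 2)).1 hcard2
      exact this
    omega
  obtain ⟨⟨v, hv⟩, hvne⟩ := Fintype.exists_ne_of_one_lt_card hcard3 ⟨1, hfix⟩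
  induction v using QuotientGroup.induction_on with
  | H e =>
  refine ⟨e, ?_, ?_⟩
  · intro he
    apply hvne
    apply Subtype.ext
    exact (QuotientGroup.eq_one_iff e).2 he
  · have : f (e : P ⧸ S) = (e : P ⧸ S) := hv
    rw [hfmk] at this
    exact QuotientGroup.eq.1 this.symm

theorem theta_c (θ : P → ℤˣ) {β : P ≃* P} (hS : Setting P c) (βc : β c = c) (θone : θ 1 = 1)
    (T3 : ∀ s t, β s = s → β t = t → s * s = t * t → θ s = θ t) : θ c = 1 := by
  rw [T3 c 1 βc (map_one β) (by rw [hS.c_sq, one_mul]), θone]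

theorem theta_sigma_mul (hS : Setting P c) (α β : P ≃* P) (βc : β c = c)
    (θ : P → ℤˣ) (T1 : ∀ s t, β s = s → β t = t → θ (s * t) = θ s * θ t) (θc : θ c = 1)
    {e f : P} (he : β (e⁻¹ * α e) = e⁻¹ * α e) (hf : β (f⁻¹ * α f) = f⁻¹ * α f) :
    β ((e * f)⁻¹ * α (e * f)) = (e * f)⁻¹ * α (e * f) ∧
    θ ((e * f)⁻¹ * α (e * f)) = θ (e⁻¹ * α e) * θ (f⁻¹ * α f) := by
  have key : (e * f)⁻¹ * α (e * f) = (f⁻¹ * (e⁻¹ * α e) * f) * (f⁻¹ * α f) := by
    rw [map_mul]; group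
  rw [key]
  rcases conj_or hS (e⁻¹ * α e) f with h | h <;> rw [h]
  · refine ⟨by rw [map_mul, he, hf], T1 _ _ he hf⟩
  · have hec : β (e⁻¹ * α e * c) = e⁻¹ * α e * c := by rw [map_mul, he, βc]
    refine ⟨by rw [map_mul, hec, hf], ?_⟩
    rw [T1 _ _ hec hf, T1 _ _ he βc, θc, mul_one]

theorem exists_good_or_EHyp [Finite P] (hS : Setting P c) (α β : P ≃* P) (αc : α c = c)
    (βc : β c = c) (comm : ∀ a, α (β a) = β (α a)) (ββ : ∀ a, β (β a) = a)
    (a : ℕ) (hα : ∀ e, α^[2 ^ a] e = e) (hcard : ∃ n, Nat.card P = 2 ^ n)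
    (hne : ∃ e, β e ≠ e) (θ : P → ℤˣ)
    (T1 : ∀ s t, β s = s → β t = t → θ (s * t) = θ s * θ t)
    (T3 : ∀ s t, β s = s → β t = t → s * s = t * t → θ s = θ t) (θone : θ 1 = 1)
    (hα4 : (∃ s, β s = s ∧ θ s = -1) → ∀ e, α (α (α (α e))) = e) :
    (∃ e, β (e⁻¹ * α e) = e⁻¹ * α e ∧ β e ≠ e ∧ θ (e⁻¹ * α e) = 1) ∨
      ∃ e₀, EHyp c α β e₀ ∧ θ (e₀⁻¹ * α e₀) = -1 := by
  by_cases hgood : ∃ e, β (e⁻¹ * α e) = e⁻¹ * α e ∧ β e ≠ e ∧ θ (e⁻¹ * α e) = 1
  · exact Or.inl hgood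
  right
  push Not at hgood
  have θc : θ c = 1 := theta_c θ hS βc θone T3
  -- the element `e₀`
  have hαS : ∀ s ∈ FixS β, α s ∈ FixS β := by
    intro s hs
    have hs' : β s = s := hs
    change β (α s) = α s
    rw [← comm, hs']
  obtain ⟨e₀, he₀, hs₀⟩ := exists_fixed_not_mem hS α (FixS β) βc hαS a hα hcard hne
  have he₀' : β e₀ ≠ e₀ := he₀
  have hs₀' : β (e₀⁻¹ * α e₀) = e₀⁻¹ * α e₀ := hs₀
  have hθ₀ : θ (e₀⁻¹ * α e₀) = -1 := by
    rcases Int.units_eq_one_or (θ (e₀⁻¹ * α e₀)) with h1 | h1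
    · exact absurd h1 (hgood e₀ hs₀' he₀')
    · exact h1
  have hsq₀ : (e₀⁻¹ * α e₀) * (e₀⁻¹ * α e₀) = c := by
    rcases sq_or hS (e₀⁻¹ * α e₀) with h1 | h1
    · exfalso
      have h2 := T3 _ 1 hs₀' (map_one β) (by rw [h1, one_mul])
      rw [hθ₀, θone] at h2
      exact absurd h2 (by decide)
    · exact h1
  -- squares and signs
  have hsgn1 : ∀ s, β s = s → s * s = 1 → θ s = 1 := by
    intro s hs hss
    rw [T3 s 1 hs (map_one β) (by rw [hss, one_mul]), θone]
  have hsgnc : ∀ s, β s = s → s * s = c → θ s = -1 := by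
    intro s hs hss
    rw [T3 s _ hs hs₀' (by rw [hss, hsq₀]), hθ₀]
  have hSab : ∀ s t, β s = s → β t = t → s * t = t * s := by
    intro s t hs ht
    rcases comm_or hS s t with h1 | h1
    · exact h1
    exfalso
    have hst : β (s * t) = s * t := by rw [map_mul, hs, ht]
    have h2 : (s * t) * (s * t) = c * ((s * s) * (t * t)) := by
      have h3 : t * s = c * (s * t) := by
        rw [h1, ← mul_assoc, hS.c_sq, one_mul]
      calc (s * t) * (s * t) = s * (t * s) * t := by group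
        _ = s * (c * (s * t)) * t := by rw [h3]
        _ = (s * c) * s * t * t := by group
        _ = (c * s) * s * t * t := by rw [hS.c_central s]
        _ = c * ((s * s) * (t * t)) := by group
    have hT := T1 s t hs ht
    rcases sq_or hS s with hss | hss <;> rcases sq_or hS t with htt | htt
    · rw [hss, htt] at h2
      simp only [mul_one] at h2
      rw [hsgnc _ hst h2, hsgn1 s hs hss, hsgn1 t ht htt] at hT
      exact absurd hT (by decide)
    · rw [hss, htt, one_mul, hS.c_sq] at h2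
      rw [hsgn1 _ hst h2, hsgn1 s hs hss, hsgnc t ht htt] at hT
      exact absurd hT (by decide)
    · rw [hss, htt, mul_one, hS.c_sq] at h2
      rw [hsgn1 _ hst h2, hsgnc s hs hss, hsgn1 t ht htt] at hT
      exact absurd hT (by decide)
    · rw [hss, htt, hS.c_sq, mul_one] at h2
      rw [hsgnc _ hst h2, hsgnc s hs hss, hsgnc t ht htt] at hT
      exact absurd hT (by decide)
  -- `θ σ` on inverses
  have hinv : β ((e₀⁻¹)⁻¹ * α e₀⁻¹) = (e₀⁻¹)⁻¹ * α e₀⁻¹ ∧ θ ((e₀⁻¹)⁻¹ * α e₀⁻¹) = -1 := by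
    -- `σ(e₀⁻¹) = e₀ (σ e₀)⁻¹ e₀⁻¹`
    have h1 : (e₀⁻¹)⁻¹ * α e₀⁻¹ = e₀ * (e₀⁻¹ * α e₀)⁻¹ * e₀⁻¹ := by
      rw [map_inv]; group
    have hconj := conj_or hS (e₀⁻¹ * α e₀)⁻¹ e₀⁻¹
    simp only [inv_inv] at hconj
    rw [h1]
    have hi : β (e₀⁻¹ * α e₀)⁻¹ = (e₀⁻¹ * α e₀)⁻¹ := by rw [map_inv, hs₀']
    have hiθ : θ (e₀⁻¹ * α e₀)⁻¹ = -1 := by
      have h2 := T1 _ _ hi hs₀'
      rw [inv_mul_cancel, θone, hθ₀] at h2
      have h3 : θ (e₀⁻¹ * α e₀)⁻¹ * (-1) * (-1) = 1 * (-1) := by rw [← h2]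
      simpa using h3
    rcases hconj with h2 | h2 <;> rw [h2]
    · exact ⟨hi, hiθ⟩
    · refine ⟨by rw [map_mul, hi, βc], ?_⟩
      rw [T1 _ _ hi βc, hiθ, θc, mul_one]
  refine ⟨e₀, ⟨hS, αc, βc, comm, ββ, hα4 ⟨_, hs₀', hθ₀⟩, hSab, hs₀', hsq₀, he₀', ?_⟩, hθ₀⟩
  intro e he
  by_cases he' : β e = e
  · exact Or.inl he'
  right
  have hθe : θ (e⁻¹ * α e) = -1 := by
    rcases Int.units_eq_one_or (θ (e⁻¹ * α e)) with h1 | h1
    · exact absurd h1 (hgood e he he')
    · exact h1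
  obtain ⟨h1, h2⟩ := theta_sigma_mul hS α β βc θ T1 θc hinv.1 he
  by_contra hnot
  have h3 := hgood (e₀⁻¹ * e) h1 hnot
  apply h3
  rw [h2, hinv.2, hθe]
  decide


theorem sigma_of_sigma_mul (hS : Setting P c) (α β : P ≃* P) (βc : β c = c)
    {e f : P} (he : β (e⁻¹ * α e) = e⁻¹ * α e)
    (hef : β ((e * f)⁻¹ * α (e * f)) = (e * f)⁻¹ * α (e * f)) :
    β (f⁻¹ * α f) = f⁻¹ * α f := by
  have key : (e * f)⁻¹ * α (e * f) = (f⁻¹ * (e⁻¹ * α e) * f) * (f⁻¹ * α f) := by
    rw [map_mul]; group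
  have h1 : β (f⁻¹ * (e⁻¹ * α e) * f) = f⁻¹ * (e⁻¹ * α e) * f := by
    rcases conj_or hS (e⁻¹ * α e) f with h | h <;> rw [h]
    · exact he
    · rw [map_mul, he, βc]
  have h2 : f⁻¹ * α f = (f⁻¹ * (e⁻¹ * α e) * f)⁻¹ * ((e * f)⁻¹ * α (e * f)) := by
    rw [key]; group
  rw [h2, map_mul, map_inv, h1, hef]

end Cfsg.Agent.Lib.ExtraTransfer.ELevel
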