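import Mathlib

/-!
The transfer of a sign character `κ : H → ℤˣ` at a `2`-element `x`, minimal among the `2`-elements
on which `κ` is nontrivial, is the product over all cosets of the values of `κ` extended by `1`.
-/

set_option autoImplicit false
set_option linter.unusedSectionVars false
set_option linter.unusedVariables false
set_option linter.style.longLine false

namespace Cfsg.Agent.Lib.ExtraTransfer.TransferProd

open scoped BigOperators

variable {G : Type*} [Group G]

/-- A character extended by `1` outside the subgroup. -/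
noncomputable def KK (H : Subgroup G) (κ : H →* ℤˣ) (g : G) : ℤˣ := by
  classical exact if h : g ∈ H then κ ⟨g, h⟩ else 1

theorem KK_of_mem (H : Subgroup G) (κ : H →* ℤˣ) {g : G} (hg : g ∈ H) :
    KK H κ g = κ ⟨g, hg⟩ := by
  classical
  unfold KK
  simp [hg]

theorem KK_of_not_mem (H : Subgroup G) (κ : H →* ℤˣ) {g : G} (hg : g ∉ H) :
    KK H κ g = 1 := by
  classical
  unfold KK
  simp [hg]

theorem KK_conj (H : Subgroup G) (κ : H →* ℤˣ) {h : G} (hh : h ∈ H) (u : G) :
    KK H κ (h⁻¹ * u * h) = KK H κ u := by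
  by_cases hu : u ∈ H
  · have h1 : h⁻¹ * u * h ∈ H := H.mul_mem (H.mul_mem (H.inv_mem hh) hu) hh
    rw [KK_of_mem H κ h1, KK_of_mem H κ hu]
    have h2 : (⟨h⁻¹ * u * h, h1⟩ : H) = (⟨h, hh⟩ : H)⁻¹ * ⟨u, hu⟩ * ⟨h, hh⟩ := rfl
    rw [h2, map_mul, map_mul, map_inv, mul_comm, ← mul_assoc, mul_inv_cancel, one_mul]
  · have h1 : h⁻¹ * u * h ∉ H := by
      intro h2
      apply hu
      have h3 : u = h * (h⁻¹ * u * h) * h⁻¹ := by group
      rw [h3]
      exact H.mul_mem (H.mul_mem hh h2) (H.inv_mem hh)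
    rw [KK_of_not_mem H κ h1, KK_of_not_mem H κ hu]

theorem KK_mul (H : Subgroup G) (κ : H →* ℤˣ) {u v : G} (hu : u ∈ H) (hv : v ∈ H) :
    KK H κ (u * v) = KK H κ u * KK H κ v := by
  rw [KK_of_mem H κ (H.mul_mem hu hv), KK_of_mem H κ hu, KK_of_mem H κ hv, ← map_mul]
  rfl

theorem KK_one (H : Subgroup G) (κ : H →* ℤˣ) : KK H κ 1 = 1 := by
  rw [KK_of_mem H κ H.one_mem]
  exact map_one κ

/-- The value at a coset. -/
noncomputable def nu (H : Subgroup G) (κ : H →* ℤˣ) (x : G) (y : G ⧸ H) : ℤˣ :=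
  KK H κ (y.out⁻¹ * x * y.out)

theorem nu_mk (H : Subgroup G) (κ : H →* ℤˣ) (x g : G) :
    nu H κ x (g : G ⧸ H) = KK H κ (g⁻¹ * x * g) := by
  unfold nu
  obtain ⟨h, hh⟩ := QuotientGroup.mk_out_eq_mul H g
  rw [hh]
  have : (g * (h : G))⁻¹ * x * (g * h) = (h : G)⁻¹ * (g⁻¹ * x * g) * h := by group
  rw [this, KK_conj H κ h.2]

theorem transfer_eq_prod [Finite G] (H : Subgroup G) [Fintype (G ⧸ H)] (κ : H →* ℤˣ) (x : G) (a : ℕ) (hx : x ^ 2 ^ a = 1)
    (hmin : ∀ (g : G) (n : ℕ), n ≠ 1 → n ∣ 2 ^ a → ∀ hu : g⁻¹ * x ^ n * g ∈ H, κ ⟨_, hu⟩ = 1) :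
    MonoidHom.transfer κ x = ∏ y : G ⧸ H, nu H κ x y := by
  classical
  let : Fintype (Quotient (MulAction.orbitRel (Subgroup.zpowers x) (G ⧸ H))) := Fintype.ofFinite _
  rw [MonoidHom.transfer_eq_prod_quotient_orbitRel_zpowers_quot κ x]
  rw [← Finset.prod_fiberwise Finset.univ
    (fun y : G ⧸ H => (Quotient.mk'' y : Quotient (MulAction.orbitRel (Subgroup.zpowers x) (G ⧸ H))))
    (nu H κ x)]
  apply Finset.prod_congr rfl
  intro q _
  -- the fibre
  have hq : (Quotient.mk'' q.out : Quotient (MulAction.orbitRel (Subgroup.zpowers x) (G ⧸ H))) = q :=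
    Quotient.out_eq' q
  have hfib : ∀ y : G ⧸ H, (Quotient.mk'' y : Quotient (MulAction.orbitRel (Subgroup.zpowers x) (G ⧸ H))) = q →
      ∃ p : Subgroup.zpowers x, (p : G) • q.out = y := by
    intro y hy
    have h1 : (Quotient.mk'' y : Quotient (MulAction.orbitRel (Subgroup.zpowers x) (G ⧸ H))) =
        Quotient.mk'' q.out := by rw [hy, hq]
    have h2 := Quotient.exact' h1
    obtain ⟨p, hp⟩ := h2
    exact ⟨p, hp⟩
  by_cases hfix : x • q.out = q.out
  · -- fixed point: the fibre is a singleton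
    have hper : Function.minimalPeriod (x • ·) q.out = 1 :=
      Function.minimalPeriod_eq_one_iff_isFixedPt.2 hfix
    have hfilter : Finset.univ.filter (fun y : G ⧸ H => (Quotient.mk'' y : Quotient (MulAction.orbitRel (Subgroup.zpowers x) (G ⧸ H))) = q) = {q.out} := by
      ext y
      simp only [Finset.mem_filter, Finset.mem_univ, true_and, Finset.mem_singleton]
      constructor
      · intro hy
        obtain ⟨p, hp⟩ := hfib y hy
        rw [← hp]
        obtain ⟨k, hk⟩ := Subgroup.mem_zpowers_iff.mp p.2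
        rw [← hk]
        have h6 : x ∈ MulAction.stabilizer G q.out := hfix
        exact (MulAction.stabilizer G q.out).zpow_mem h6 k
      · rintro rfl
        exact hq
    rw [hfilter, Finset.prod_singleton]
    unfold nu
    have hmem := QuotientGroup.out_conj_pow_minimalPeriod_mem H x q.out
    have hmem' : q.out.out⁻¹ * x * q.out.out ∈ H := by
      rw [hper, pow_one] at hmem
      exact hmem
    rw [KK_of_mem H κ hmem']
    congr 1
    apply Subtype.ext
    simp only [hper, pow_one]
  · -- non-fixed points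
    have hper : Function.minimalPeriod (x • ·) q.out ≠ 1 := by
      intro h
      exact hfix (Function.minimalPeriod_eq_one_iff_isFixedPt.1 h)
    have hdvd : Function.minimalPeriod (x • ·) q.out ∣ 2 ^ a := by
      rw [← MulAction.pow_smul_eq_iff_minimalPeriod_dvd, hx, one_smul]
    rw [hmin _ _ hper hdvd]
    symm
    apply Finset.prod_eq_one
    intro y hy
    simp only [Finset.mem_filter, Finset.mem_univ, true_and] at hy
    obtain ⟨p, hp⟩ := hfib y hy
    unfold nu
    apply KK_of_not_mem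
    intro hmem
    apply hfix
    -- `x` fixes `y`, hence `q.out`
    have h1 : x • y = y := by
      rw [← QuotientGroup.out_eq' y]
      change ((x * y.out : G) : G ⧸ H) = (y.out : G ⧸ H)
      rw [QuotientGroup.eq]
      have h2 : (x * y.out)⁻¹ * y.out = (y.out⁻¹ * x * y.out)⁻¹ := by group
      rw [h2]
      exact H.inv_mem hmem
    rw [← hp] at h1
    have hcomm : x * (p : G) = (p : G) * x := by
      obtain ⟨k, hk⟩ := Subgroup.mem_zpowers_iff.mp p.2
      rw [← hk]
      exact (Commute.zpow_right (Commute.refl x) k).eq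
    rw [← mul_smul, hcomm, mul_smul] at h1
    exact smul_left_cancel _ h1

end Cfsg.Agent.Lib.ExtraTransfer.TransferProd
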