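import Mathlib
import Cfsg.Prelude.Def_Transfer
import Cfsg.Prelude.Def_Solvable
import Cfsg.Agent.Lib.LargeExtra.Basic
import Cfsg.Agent.Lib.PGroups.Special
import Cfsg.Agent.Lib.ExtraTransfer.ELevel
import Cfsg.Agent.Lib.ExtraTransfer.TransferProd

/-!
The transfer argument for a sign character on the centraliser `H = C_G(z)` of an involution with
`O₂(H)` extraspecial and self-centralising: a character `κ : H → ℤˣ` which is constant on
the fibres of `u ↦ u²` is trivial, when `G` is generated by its elements of odd order.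
-/

set_option autoImplicit false
set_option linter.unusedSectionVars false
set_option linter.unusedVariables false
set_option linter.style.longLine false

namespace Cfsg.Agent.Lib.ExtraTransfer.Main

open scoped BigOperators
open Cfsg.Agent.Lib.LargeExtra.Basic Cfsg.Agent.Lib.LargeExtra.Duality
open Cfsg.Agent.Lib.ExtraTransfer.ELevel Cfsg.Agent.Lib.ExtraTransfer.TransferProd

/-- The product of signs over a set with a pairing of each orbit. -/
theorem prod_eq_one_of_pairing {X E : Type*} [Fintype X] [Group E] [MulAction E X] (ν : X → ℤˣ)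
    (hpair : ∀ y₀, ν y₀ ≠ 1 → ∃ e : E, ∀ f : E, ν (e • f • y₀) = ν (f • y₀) ∧
      e • e • f • y₀ = f • y₀ ∧ e • f • y₀ ≠ f • y₀) : ∏ y, ν y = 1 := by
  classical
  have hq : ∀ q : Quotient (MulAction.orbitRel E X), ∃ e : E, ∀ y : X,
      (Quotient.mk'' y : Quotient (MulAction.orbitRel E X)) = q →
        ν (e • y) = ν y ∧ e • e • y = y ∧ (ν y ≠ 1 → e • y ≠ y) := by
    intro q
    by_cases hex : ∃ y₀ : X, (Quotient.mk'' y₀ : Quotient (MulAction.orbitRel E X)) = q ∧ ν y₀ ≠ 1
    · obtain ⟨y₀, hy₀, hne⟩ := hex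
      obtain ⟨e, he⟩ := hpair y₀ hne
      refine ⟨e, fun y hy => ?_⟩
      have h1 : (Quotient.mk'' y : Quotient (MulAction.orbitRel E X)) = Quotient.mk'' y₀ := by
        rw [hy, hy₀]
      obtain ⟨f, hf⟩ := Quotient.exact' h1
      have hf' : f • y₀ = y := hf
      rw [← hf']
      exact ⟨(he f).1, (he f).2.1, fun _ => (he f).2.2⟩
    · refine ⟨1, fun y hy => ?_⟩
      refine ⟨by simp, by simp, fun hne => ?_⟩
      exact absurd ⟨y, hy, hne⟩ hex
  choose ε hε using hq
  let qq : X → Quotient (MulAction.orbitRel E X) := fun y => Quotient.mk'' y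
  have hinv : ∀ (e : E) (y : X), qq (e • y) = qq y := by
    intro e y
    apply Quotient.sound'
    exact ⟨e, rfl⟩
  apply Finset.prod_involution (fun y _ => ε (qq y) • y)
  · intro y _
    rw [(hε (qq y) y rfl).1]
    exact Int.units_mul_self _
  · intro y _ hne
    exact (hε (qq y) y rfl).2.2 hne
  · intro y _
    exact Finset.mem_univ _
  · intro y _
    rw [hinv]
    exact (hε (qq y) y rfl).2.1

variable {G : Type*} [Group G]

/-- The centraliser of `z`. -/
abbrev HH (z : G) : Subgroup G := Subgroup.centralizer ({z} : Set G)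

theorem mem_HH {z g : G} : g ∈ HH z ↔ z * g = g * z := by
  rw [Subgroup.mem_centralizer_iff]
  simp

theorem conj_mem_HH {z s g : G} : g⁻¹ * s * g ∈ HH z ↔ s * (g * z * g⁻¹) = (g * z * g⁻¹) * s := by
  rw [mem_HH]
  constructor
  · intro h
    calc s * (g * z * g⁻¹) = g * ((g⁻¹ * s * g) * z) * g⁻¹ := by group
      _ = g * (z * (g⁻¹ * s * g)) * g⁻¹ := by rw [h]
      _ = (g * z * g⁻¹) * s := by group
  · intro h
    calc z * (g⁻¹ * s * g) = g⁻¹ * ((g * z * g⁻¹) * s) * g := by group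
      _ = g⁻¹ * (s * (g * z * g⁻¹)) * g := by rw [h]
      _ = g⁻¹ * s * g * z := by group

section Setup

variable {z : G} {E : Subgroup G}

theorem E_le_HH (hE : SettingAt z E) : E ≤ HH z := fun e he => mem_HH.2 (hE.central e he).symm

/-- The action of `h` on a subgroup it normalises. -/
def conjE (E : Subgroup G) (h : G) (hn : ∀ e ∈ E, h * e * h⁻¹ ∈ E) (hn' : ∀ e ∈ E, h⁻¹ * e * h ∈ E) :
    E ≃* E where
  toFun e := ⟨h * e * h⁻¹, hn e e.2⟩
  invFun e := ⟨h⁻¹ * e * h, hn' e e.2⟩
  left_inv e := by apply Subtype.ext; change h⁻¹ * (h * (e : G) * h⁻¹) * h = e; group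
  right_inv e := by apply Subtype.ext; change h * (h⁻¹ * (e : G) * h) * h⁻¹ = e; group
  map_mul' a b := by apply Subtype.ext; change h * ((a : G) * b) * h⁻¹ = (h * a * h⁻¹) * (h * b * h⁻¹); group

@[simp] theorem conjE_coe (E : Subgroup G) (h : G) (hn) (hn') (e : E) :
    ((conjE E h hn hn' e : E) : G) = h * e * h⁻¹ := rfl

theorem conjE_iter (E : Subgroup G) (h : G) (hn) (hn') (n : ℕ) (e : E) :
    (((conjE E h hn hn')^[n] e : E) : G) = h ^ n * e * (h ^ n)⁻¹ := by
  induction n generalizing e with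
  | zero => simp
  | succ n ih =>
    rw [Function.iterate_succ_apply, ih, conjE_coe, pow_succ]
    group

/-- If `h` moves every element of `E` by at most `z`, then `h` is in `E`. -/
theorem mem_E_of_action [Finite G] (hE : SettingAt z E) (hcent : Subgroup.centralizer (E : Set G) ≤ E)
    {h : G} (hh : ∀ e ∈ E, h * e * h⁻¹ = e ∨ h * e * h⁻¹ = e * z) : h ∈ E := by
  classical
  have hS := hE.toSetting
  have hzfix : h * z * h⁻¹ = z := by
    rcases hh z hE.mem with h1 | h1
    · exact h1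
    · rw [hE.sq] at h1
      exfalso
      have h2 : h * z * h⁻¹ * h = h := by rw [h1, one_mul]
      have h3 : h * z = h := by
        calc h * z = h * z * h⁻¹ * h := by group
          _ = h := h2
      exact hE.ne_one (mul_left_cancel (a := h) (by rw [h3, mul_one]))
  -- the stabiliser
  let Y : Subgroup E :=
    { carrier := {e | h * (e : G) * h⁻¹ = e}
      one_mem' := by simp
      mul_mem' := by
        intro a b ha hb
        have ha' : h * (a : G) * h⁻¹ = a := ha
        have hb' : h * (b : G) * h⁻¹ = b := hb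
        change h * ((a : G) * b) * h⁻¹ = a * b
        calc h * ((a : G) * b) * h⁻¹ = (h * a * h⁻¹) * (h * b * h⁻¹) := by group
          _ = a * b := by rw [ha', hb']
      inv_mem' := by
        intro a ha
        have ha' : h * (a : G) * h⁻¹ = a := ha
        change h * ((a : G)⁻¹) * h⁻¹ = (a : G)⁻¹
        calc h * ((a : G)⁻¹) * h⁻¹ = (h * a * h⁻¹)⁻¹ := by group
          _ = (a : G)⁻¹ := by rw [ha'] }
  have hY : ∀ e : E, e ∈ Y ↔ h * (e : G) * h⁻¹ = e := fun e => Iff.rfl
  have hcY : (⟨z, hE.mem⟩ : E) ∈ Y := hzfix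
  by_cases hall : ∀ e : E, e ∈ Y
  · apply hcent
    rw [Subgroup.mem_centralizer_iff]
    intro e he
    have h1 : h * e * h⁻¹ = e := hall ⟨e, he⟩
    calc e * h = (h * e * h⁻¹) * h := by rw [h1]
      _ = h * e := by group
  · push Not at hall
    obtain ⟨e₁, he₁⟩ := hall
    obtain ⟨q, hq1, hq2⟩ := hS.exists_commute_not_commute Y hcY he₁
    have hmv : ∀ e : E, e ∉ Y → h * (e : G) * h⁻¹ = e * z := by
      intro e he
      exact (hh e e.2).resolve_left he
    have hkey : ∀ e : E, h * (e : G) * h⁻¹ = q * e * (q : G)⁻¹ := by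
      intro e
      by_cases he : e ∈ Y
      · have h1 := hq1 e he
        have h2 : (q : G) * e = e * q := congrArg Subtype.val h1
        rw [(hY e).1 he, h2]; group
      · rw [hmv e he]
        have hne : (q : G) * e ≠ e * q := by
          intro hqe
          -- `e₁⁻¹ e` is fixed, so `q` commutes with it
          have hfx : e₁⁻¹ * e ∈ Y := by
            rw [hY]
            have h1 := hmv e he
            have h2 := hmv e₁ he₁
            have hz1 : (e : G) * z = z * e := hE.central e e.2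
            have hz2 : ((e₁ : G))⁻¹ * z = z * ((e₁ : G))⁻¹ := hE.central _ (E.inv_mem e₁.2)
            change h * (((e₁ : G))⁻¹ * e) * h⁻¹ = ((e₁ : G))⁻¹ * e
            calc h * (((e₁ : G))⁻¹ * e) * h⁻¹ = (h * e₁ * h⁻¹)⁻¹ * (h * e * h⁻¹) := by group
              _ = (e₁ * z)⁻¹ * (e * z) := by rw [h1, h2]
              _ = z⁻¹ * (((e₁ : G))⁻¹ * (e * z)) := by group
              _ = z⁻¹ * (((e₁ : G))⁻¹ * (z * e)) := by rw [hz1]
              _ = z⁻¹ * ((((e₁ : G))⁻¹ * z) * e) := by group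
              _ = z⁻¹ * ((z * ((e₁ : G))⁻¹) * e) := by rw [hz2]
              _ = ((e₁ : G))⁻¹ * e := by group
          have h3 := hq1 _ hfx
          have h4 : q * (e₁⁻¹ * e) = (e₁⁻¹ * e) * q := h3
          apply hq2
          have hqe' : q * e = e * q := Subtype.ext hqe
          have h5 : q * e₁⁻¹ * e = e₁⁻¹ * q * e := by
            calc q * e₁⁻¹ * e = q * (e₁⁻¹ * e) := by group
              _ = (e₁⁻¹ * e) * q := h4
              _ = e₁⁻¹ * (e * q) := by group
              _ = e₁⁻¹ * (q * e) := by rw [hqe']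
              _ = e₁⁻¹ * q * e := by group
          have h6 : q * e₁⁻¹ = e₁⁻¹ * q := mul_right_cancel h5
          calc q * e₁ = e₁ * (e₁⁻¹ * q) * e₁ := by group
            _ = e₁ * (q * e₁⁻¹) * e₁ := by rw [h6]
            _ = e₁ * q := by group
        rcases hE.comm q q.2 e e.2 with h1 | h1
        · exfalso
          apply hne
          exact (comm_eq_one_iff _ _).1 h1
        · have hz1 : (e : G) * z = z * e := hE.central e e.2
          rw [hz1, ← h1]
          group
    apply (E.mul_mem_cancel_left (E.inv_mem q.2)).1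
    apply hcent
    rw [Subgroup.mem_centralizer_iff]
    intro e he
    have h1 := hkey ⟨e, he⟩
    have h2 : h * e * h⁻¹ = q * e * (q : G)⁻¹ := h1
    calc e * ((q : G)⁻¹ * h) = (q : G)⁻¹ * (q * e * (q : G)⁻¹) * h := by group
      _ = (q : G)⁻¹ * (h * e * h⁻¹) * h := by rw [h2]
      _ = (q : G)⁻¹ * h * e := by group

/-- `κ` is trivial on `E` when it is constant on the fibres of the squaring map. -/
theorem kappa_E (hE : SettingAt z E) (κ : HH z →* ℤˣ) (hL : ∀ u v : HH z, u * u = v * v → κ u = κ v)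
    {e : G} (he : e ∈ E) : κ ⟨e, E_le_HH hE he⟩ = 1 := by
  have hS := hE.toSetting
  let e' : E := ⟨e, he⟩
  let ι : E →* HH z := Subgroup.inclusion (E_le_HH hE)
  have hι : κ ⟨e, E_le_HH hE he⟩ = κ (ι e') := rfl
  have hL' : ∀ a b : E, a * a = b * b → κ (ι a) = κ (ι b) := by
    intro a b hab
    apply hL
    rw [← map_mul, ← map_mul, hab]
  rw [hι]
  rcases sq_or hS e' with h1 | h1
  · rw [hL' e' 1 (by rw [h1, one_mul]), map_one, map_one]
  · have hne : ¬ ∀ b : E, e' * b = b * e' := by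
      intro hall
      rcases hS.rad e' hall with h2 | h2
      · rw [h2, one_mul] at h1
        exact hS.c_ne h1.symm
      · rw [h2, hS.c_sq] at h1
        exact hS.c_ne h1.symm
    push Not at hne
    obtain ⟨f, hf⟩ := hne
    rcases comm_or hS e' f with h2 | h2
    · exact absurd h2 hf
    · have h3 : f * e' = ⟨z, hE.mem⟩ * (e' * f) := by
        rw [h2, ← mul_assoc, hS.c_sq, one_mul]
      have h4 : (e' * f) * (e' * f) = f * f := by
        calc (e' * f) * (e' * f) = e' * (f * e') * f := by group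
          _ = e' * (⟨z, hE.mem⟩ * (e' * f)) * f := by rw [h3]
          _ = (e' * ⟨z, hE.mem⟩) * e' * f * f := by group
          _ = (⟨z, hE.mem⟩ * e') * e' * f * f := by rw [hS.c_central e']
          _ = ⟨z, hE.mem⟩ * (e' * e') * f * f := by group
          _ = f * f := by rw [h1, hS.c_sq, one_mul]
      have h5 := hL' _ _ h4
      rw [map_mul, map_mul] at h5
      exact mul_right_cancel (b := κ (ι f)) (by rw [h5, one_mul])

theorem pair_main [Finite G] (hE : SettingAt z E) (hcent : Subgroup.centralizer (E : Set G) ≤ E)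
    (hnorm : ∀ h ∈ HH z, ∀ e ∈ E, h * e * h⁻¹ ∈ E)
    (hcard : ∃ n : ℕ, Nat.card E = 2 ^ (2 * n + 1))
    (κ : HH z →* ℤˣ) (hL : ∀ u v : HH z, u * u = v * v → κ u = κ v)
    {x : G} (hxH : x ∈ HH z) (hκx : κ ⟨x, hxH⟩ = -1) (a : ℕ) (hxa : x ^ 2 ^ a = 1)
    (hmin : ∀ u : HH z, κ u = -1 → ∀ k : ℕ, u ^ 2 ^ k = 1 → x ^ 2 ^ k = 1)
    {g : G} (hg : g ∉ HH z) (hν : KK (HH z) κ (g⁻¹ * x * g) ≠ 1) :
    ∃ e ∈ E, ∀ f ∈ E,
      KK (HH z) κ ((e * (f * g))⁻¹ * x * (e * (f * g))) = KK (HH z) κ ((f * g)⁻¹ * x * (f * g)) ∧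
      ((e * (e * (f * g)) : G) : G ⧸ HH z) = ((f * g : G) : G ⧸ HH z) ∧
      ((e * (f * g) : G) : G ⧸ HH z) ≠ ((f * g : G) : G ⧸ HH z) := by
  classical
  have hS := hE.toSetting
  have hzz : z * z = 1 := hE.sq
  have hzinv : z⁻¹ = z := inv_eq_of_mul_eq_one_left hzz
  have hu : g⁻¹ * x * g ∈ HH z := by
    by_contra hcon
    exact hν (KK_of_not_mem _ _ hcon)
  obtain ⟨w, hw⟩ : ∃ w, w = g * z * g⁻¹ := ⟨_, rfl⟩
  have hconj : ∀ s : G, g⁻¹ * s * g ∈ HH z ↔ s * w = w * s := by
    intro s; rw [hw]; exact conj_mem_HH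
  have hwne : w ≠ z := by
    intro h
    apply hg
    rw [mem_HH]
    have h1 : g * z * g⁻¹ = z := by rw [← hw, h]
    calc z * g = (g * z * g⁻¹) * g := by rw [h1]
      _ = g * z := by group
  have hxw : x * w = w * x := (hconj x).1 hu
  have hxz : z * x = x * z := mem_HH.1 hxH
  by_cases hzw : z * w = w * z
  swap
  · -- case A
    refine ⟨z, hE.mem, fun f hf => ⟨?_, ?_, ?_⟩⟩
    · congr 1
      calc (z * (f * g))⁻¹ * x * (z * (f * g)) = (f * g)⁻¹ * (z⁻¹ * (x * z)) * (f * g) := by group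
        _ = (f * g)⁻¹ * (z⁻¹ * (z * x)) * (f * g) := by rw [hxz]
        _ = (f * g)⁻¹ * x * (f * g) := by group
    · congr 1
      rw [← mul_assoc, hzz, one_mul]
    · intro hcon
      rw [QuotientGroup.eq] at hcon
      have hfz : f * z = z * f := hE.central f hf
      have h1 : (z * (f * g))⁻¹ * (f * g) = g⁻¹ * z * g := by
        calc (z * (f * g))⁻¹ * (f * g) = g⁻¹ * (f⁻¹ * (z⁻¹ * f)) * g := by group
          _ = g⁻¹ * (f⁻¹ * (z * f)) * g := by rw [hzinv]
          _ = g⁻¹ * (f⁻¹ * (f * z)) * g := by rw [hfz]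
          _ = g⁻¹ * z * g := by group
      rw [h1, hconj] at hcon
      exact hzw hcon
  -- case B
  have hwH : w ∈ HH z := mem_HH.2 hzw
  have hww : w * w = 1 := by
    rw [hw]
    calc g * z * g⁻¹ * (g * z * g⁻¹) = g * (z * z) * g⁻¹ := by group
      _ = 1 := by rw [hzz]; group
  have hinvH : ∀ {h : G}, h ∈ HH z → ∀ e ∈ E, h⁻¹ * e * h ∈ E := by
    intro h hh e he
    have := hnorm h⁻¹ ((HH z).inv_mem hh) e he
    simpa using this
  let α : E ≃* E := conjE E x (hnorm x hxH) (hinvH hxH)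
  let β : E ≃* E := conjE E w (hnorm w hwH) (hinvH hwH)
  let c : E := ⟨z, hE.mem⟩
  have hαcoe : ∀ e : E, ((α e : E) : G) = x * e * x⁻¹ := fun e => rfl
  have hβcoe : ∀ e : E, ((β e : E) : G) = w * e * w⁻¹ := fun e => rfl
  have hβfix : ∀ e : E, β e = e ↔ g⁻¹ * (e : G) * g ∈ HH z := by
    intro e
    rw [hconj]
    constructor
    · intro h
      have h1 : w * (e : G) * w⁻¹ = e := by rw [← hβcoe, h]
      calc (e : G) * w = (w * (e : G) * w⁻¹) * w := by rw [h1]
        _ = w * e := by group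
    · intro h
      apply Subtype.ext
      rw [hβcoe, ← h]
      group
  have αc : α c = c := by
    apply Subtype.ext
    change x * z * x⁻¹ = z
    rw [← hxz]; group
  have βc : β c = c := by
    apply Subtype.ext
    change w * z * w⁻¹ = z
    rw [← hzw]; group
  have hcomm : ∀ e, α (β e) = β (α e) := by
    intro e
    apply Subtype.ext
    change x * (w * (e : G) * w⁻¹) * x⁻¹ = w * (x * (e : G) * x⁻¹) * w⁻¹
    calc x * (w * (e : G) * w⁻¹) * x⁻¹ = (x * w) * e * (x * w)⁻¹ := by group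
      _ = (w * x) * e * (w * x)⁻¹ := by rw [hxw]
      _ = w * (x * (e : G) * x⁻¹) * w⁻¹ := by group
  have hββ : ∀ e, β (β e) = e := by
    intro e
    apply Subtype.ext
    change w * (w * (e : G) * w⁻¹) * w⁻¹ = e
    calc w * (w * (e : G) * w⁻¹) * w⁻¹ = (w * w) * e * (w * w)⁻¹ := by group
      _ = e := by rw [hww]; group
  have hαit : ∀ e, α^[2 ^ a] e = e := by
    intro e
    apply Subtype.ext
    rw [conjE_iter, hxa]
    group
  have hcardE : ∃ n, Nat.card E = 2 ^ n := by
    obtain ⟨n, hn⟩ := hcard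
    exact ⟨_, hn⟩
  have hneS : ∃ e, β e ≠ e := by
    by_contra hcon
    push Not at hcon
    have hwC : w ∈ Subgroup.centralizer (E : Set G) := by
      rw [Subgroup.mem_centralizer_iff]
      intro e he
      have h1 : w * e * w⁻¹ = e := congrArg Subtype.val (hcon ⟨e, he⟩)
      calc e * w = (w * e * w⁻¹) * w := by rw [h1]
        _ = w * e := by group
    have hwE : w ∈ E := hcent hwC
    rcases hE.rad w hwE (fun b hb => by
      have h1 := (Subgroup.mem_centralizer_iff.1 hwC) b hb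
      exact h1.symm) with h1 | h1
    · apply hE.ne_one
      have h2 : g * z * g⁻¹ = 1 := by rw [← hw, h1]
      have h3 : g * z = g := by
        calc g * z = (g * z * g⁻¹) * g := by group
          _ = g := by rw [h2, one_mul]
      exact mul_left_cancel (a := g) (by rw [h3, mul_one])
    · exact hwne h1
  let θ : E → ℤˣ := fun e => KK (HH z) κ (g⁻¹ * (e : G) * g)
  have hθ : ∀ e : E, θ e = KK (HH z) κ (g⁻¹ * (e : G) * g) := fun e => rfl
  have T1 : ∀ s t, β s = s → β t = t → θ (s * t) = θ s * θ t := by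
    intro s t hs ht
    rw [hθ, hθ, hθ]
    have h1 : g⁻¹ * ((s * t : E) : G) * g = (g⁻¹ * (s : G) * g) * (g⁻¹ * (t : G) * g) := by
      change g⁻¹ * ((s : G) * t) * g = _
      group
    rw [h1, KK_mul _ _ ((hβfix s).1 hs) ((hβfix t).1 ht)]
  have T3 : ∀ s t, β s = s → β t = t → s * s = t * t → θ s = θ t := by
    intro s t hs ht hst
    rw [hθ, hθ, KK_of_mem _ _ ((hβfix s).1 hs), KK_of_mem _ _ ((hβfix t).1 ht)]
    apply hL
    apply Subtype.ext
    have h1 : (s : G) * s = t * t := congrArg Subtype.val hst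
    change (g⁻¹ * (s : G) * g) * (g⁻¹ * (s : G) * g) = (g⁻¹ * (t : G) * g) * (g⁻¹ * (t : G) * g)
    calc (g⁻¹ * (s : G) * g) * (g⁻¹ * (s : G) * g) = g⁻¹ * ((s : G) * s) * g := by group
      _ = g⁻¹ * ((t : G) * t) * g := by rw [h1]
      _ = (g⁻¹ * (t : G) * g) * (g⁻¹ * (t : G) * g) := by group
  have θone : θ 1 = 1 := by
    rw [hθ]
    have : g⁻¹ * ((1 : E) : G) * g = 1 := by
      change g⁻¹ * 1 * g = 1
      group
    rw [this, KK_one]
  have θc : θ c = 1 := theta_c θ hS βc θone T3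
  have hx4 : (∃ s, β s = s ∧ θ s = -1) → x ^ 2 ^ 2 = 1 := by
    rintro ⟨s, hs, hθs⟩
    have hmem := (hβfix s).1 hs
    rw [hθ, KK_of_mem _ _ hmem] at hθs
    apply hmin _ hθs
    apply Subtype.ext
    have hss : ((s : G) * s) * ((s : G) * s) = 1 := by
      rcases sq_or hS s with h1 | h1
      · have := congrArg Subtype.val h1
        change (s : G) * s = 1 at this
        rw [this, one_mul]
      · have := congrArg Subtype.val h1
        change (s : G) * s = z at this
        rw [this, hzz]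
    change (g⁻¹ * (s : G) * g) ^ 2 ^ 2 = 1
    have h3 : (g⁻¹ * (s : G) * g) ^ 2 ^ 2 = g⁻¹ * (((s : G) * s) * ((s : G) * s)) * g := by
      simp only [show (2 : ℕ) ^ 2 = 4 from rfl, pow_succ, pow_zero]
      group
    rw [h3, hss]
    group
  have hα4 : (∃ s, β s = s ∧ θ s = -1) → ∀ e, α (α (α (α e))) = e := by
    intro hex e
    have h1 := hx4 hex
    apply Subtype.ext
    have h2 := conjE_iter E x (hnorm x hxH) (hinvH hxH) 4 e
    have h3 : x ^ 4 = 1 := h1
    rw [h3] at h2
    have h4 : (α (α (α (α e))) : E) = (conjE E x (hnorm x hxH) (hinvH hxH))^[4] e := rfl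
    rw [h4, h2]
    group
  -- the general formula for the values
  obtain ⟨σ, hσ⟩ : ∃ σ : E → E, ∀ f, σ f = f⁻¹ * α f := ⟨_, fun _ => rfl⟩
  have hF : ∀ f : E, (((f : G) * g)⁻¹ * x * ((f : G) * g)) = (g⁻¹ * ((σ f : E) : G) * g) * (g⁻¹ * x * g) := by
    intro f
    rw [hσ]
    change _ = (g⁻¹ * (((f : G)⁻¹) * (x * (f : G) * x⁻¹)) * g) * (g⁻¹ * x * g)
    group
  have hKFfix : ∀ f : E, β (σ f) = σ f →
      KK (HH z) κ (((f : G) * g)⁻¹ * x * ((f : G) * g)) = θ (σ f) * KK (HH z) κ (g⁻¹ * x * g) := by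
    intro f hf
    rw [hF, KK_mul _ _ ((hβfix _).1 hf) hu]
  have hKFnot : ∀ f : E, β (σ f) ≠ σ f →
      KK (HH z) κ (((f : G) * g)⁻¹ * x * ((f : G) * g)) = 1 := by
    intro f hf
    apply KK_of_not_mem
    rw [hF]
    intro hmem
    apply hf
    rw [hβfix]
    have h1 := (HH z).mul_mem hmem ((HH z).inv_mem hu)
    have h2 : g⁻¹ * ((σ f : E) : G) * g * (g⁻¹ * x * g) * (g⁻¹ * x * g)⁻¹ = g⁻¹ * ((σ f : E) : G) * g := by
      group
    rwa [h2] at h1
  rcases exists_good_or_EHyp hS α β αc βc hcomm hββ a hαit hcardE hneS θ T1 T3 θone hα4 with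
    ⟨e, he1, he2, he3⟩ | ⟨e₀, hyp⟩
  · -- the good element
    rw [← hσ] at he1 he3
    refine ⟨e, e.2, fun f hf => ?_⟩
    let f' : E := ⟨f, hf⟩
    have hff' : f = (f' : G) := rfl
    have hef : ((e : G) * (f * g)) = (((e * f' : E) : G) * g) := by
      change (e : G) * (f * g) = ((e : G) * f) * g
      group
    refine ⟨?_, ?_, ?_⟩
    · rw [hef, hff']
      by_cases hf1 : β (σ f') = σ f'
      · rw [hσ] at hf1
        obtain ⟨h1, h2⟩ := theta_sigma_mul hS α β βc θ T1 θc (by rw [← hσ]; exact he1) hf1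
        rw [hKFfix f' (by rw [hσ]; exact hf1), hKFfix (e * f') (by rw [hσ]; exact h1)]
        congr 1
        rw [hσ, hσ, h2, ← hσ, he3, one_mul]
      · rw [hKFnot f' hf1, hKFnot (e * f')]
        intro h1
        apply hf1
        rw [hσ] at h1 ⊢
        rw [hσ] at he1
        exact sigma_of_sigma_mul hS α β βc he1 h1
    · rw [QuotientGroup.eq]
      have hee : (e : G) * e = 1 ∨ (e : G) * e = z := by
        rcases sq_or hS e with h1 | h1
        · left; exact congrArg Subtype.val h1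
        · right; exact congrArg Subtype.val h1
      have hcomme : ∀ a ∈ E, ((e : G) * e) * a = a * ((e : G) * e) := by
        intro a ha
        rcases hee with h1 | h1 <;> rw [h1]
        · simp
        · exact (hE.central a ha).symm
      have h1 : (((e : G) * ((e : G) * (f * g))))⁻¹ * (f * g) = g⁻¹ * ((e : G) * e)⁻¹ * g := by
        have h2 : ((e : G) * ((e : G) * (f * g))) = (f * g) * (g⁻¹ * (f⁻¹ * (((e : G) * e) * f)) * g) := by group
        have h3 : f⁻¹ * (((e : G) * e) * f) = (e : G) * e := by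
          rw [hcomme f hf]; group
        rw [h2, h3]
        group
      rw [h1]
      rcases hee with h2 | h2 <;> rw [h2]
      · simp [(HH z).one_mem]
      · rw [hzinv]
        exact (hconj z).2 hzw
    · intro hcon
      rw [QuotientGroup.eq] at hcon
      have h1 : ((e : G) * (f * g))⁻¹ * (f * g) = g⁻¹ * ((f'⁻¹ * e⁻¹ * f' : E) : G) * g := by
        change _ = g⁻¹ * (f⁻¹ * (e : G)⁻¹ * f) * g
        group
      rw [h1, ← hβfix] at hcon
      apply he2
      have hinvfix : β e⁻¹ = e⁻¹ := by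
        rcases conj_or hS e⁻¹ f' with h2 | h2
        · rw [h2] at hcon
          exact hcon
        · rw [h2, map_mul, βc] at hcon
          exact mul_right_cancel hcon
      rw [map_inv] at hinvfix
      exact inv_injective hinvfix
  · -- the failing case
    obtain ⟨hyp, hθ₀⟩ := hyp
    have hP8 := hyp.card_eq_8 hcard
    have hfourth : x ^ 2 ^ 2 = 1 := hx4 ⟨_, hyp.s0, hθ₀⟩
    have ht : x * x ∈ E := by
      apply mem_E_of_action hE hcent
      intro e he
      have h1 := hyp.alpha_sq hP8 ⟨e, he⟩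
      have h2 : x * x * e * (x * x)⁻¹ = x * (x * e * x⁻¹) * x⁻¹ := by group
      rw [h2]
      rcases h1 with h1 | h1
      · left; exact congrArg Subtype.val h1
      · right; exact congrArg Subtype.val h1
    let t : E := ⟨x * x, ht⟩
    have hαt : α t = t := by
      apply Subtype.ext
      change x * (x * x) * x⁻¹ = x * x
      group
    have htt : t * t = 1 := by
      apply Subtype.ext
      change x * x * (x * x) = 1
      have h3 : x ^ 2 ^ 2 = x * x * (x * x) := by
        simp only [show (2 : ℕ) ^ 2 = 4 from rfl, pow_succ, pow_zero]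
        group
      rw [← h3, hfourth]
    have ht1 : t ≠ 1 := by
      intro h1
      have h2 : x * x = 1 := congrArg Subtype.val h1
      have h3 : (⟨x, hxH⟩ : HH z) * ⟨x, hxH⟩ = 1 * 1 := by
        apply Subtype.ext
        change x * x = 1 * 1
        rw [h2, one_mul]
      have h4 := hL _ _ h3
      rw [hκx, map_one] at h4
      exact absurd h4 (by decide)
    have htc : t ≠ c := by
      intro h1
      have h2 : x * x = z := congrArg Subtype.val h1
      obtain ⟨s, hs⟩ : ∃ s : E, s = e₀⁻¹ * α e₀ := ⟨_, rfl⟩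
      have hs2 : (s : G) * s = z := by
        have := hyp.s0sq
        rw [← hs] at this
        exact congrArg Subtype.val this
      have h3 : (⟨x, hxH⟩ : HH z) * ⟨x, hxH⟩ = ⟨s, E_le_HH hE s.2⟩ * ⟨s, E_le_HH hE s.2⟩ := by
        apply Subtype.ext
        change x * x = (s : G) * s
        rw [h2, hs2]
      have h4 := hL _ _ h3
      rw [hκx, kappa_E hE κ hL s.2] at h4
      exact absurd h4 (by decide)
    have hxE : x ∈ E := by
      apply mem_E_of_action hE hcent
      intro e he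
      rcases hyp.alpha_triv hP8 hαt htt ht1 htc ⟨e, he⟩ with h1 | h1
      · left; exact congrArg Subtype.val h1
      · right; exact congrArg Subtype.val h1
    have h1 := kappa_E hE κ hL hxE
    rw [hκx] at h1
    exact absurd h1 (by decide)

theorem core [Finite G] (hres : Cfsg.pResidual 2 G = ⊤) (hE : SettingAt z E)
    (hcent : Subgroup.centralizer (E : Set G) ≤ E)
    (hnorm : ∀ h ∈ HH z, ∀ e ∈ E, h * e * h⁻¹ ∈ E)
    (hcard : ∃ n : ℕ, Nat.card E = 2 ^ (2 * n + 1))
    (κ : HH z →* ℤˣ) (hL : ∀ u v : HH z, u * u = v * v → κ u = κ v) : ∀ u, κ u = 1 := by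
  classical
  by_contra hcon
  push Not at hcon
  obtain ⟨h₀, hh₀⟩ := hcon
  have hh₀' : κ h₀ = -1 := (Int.units_eq_one_or _).resolve_left hh₀
  have hex : ∃ k : ℕ, ∃ u : HH z, κ u = -1 ∧ u ^ 2 ^ k = 1 := by
    obtain ⟨r, m, hm, hn⟩ := Nat.exists_eq_two_pow_mul_odd (orderOf_pos h₀).ne'
    refine ⟨r, h₀ ^ m, ?_, ?_⟩
    · rw [map_pow, hh₀', hm.neg_one_pow]
    · rw [← pow_mul, mul_comm, ← hn, pow_orderOf_eq_one]
  obtain ⟨a, ha⟩ : ∃ a, a = Nat.find hex := ⟨_, rfl⟩
  have hspec := Nat.find_spec hex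
  rw [← ha] at hspec
  obtain ⟨x', hx1, hx2⟩ := hspec
  have hfind : ∀ k : ℕ, (∃ u : HH z, κ u = -1 ∧ u ^ 2 ^ k = 1) → a ≤ k := by
    intro k hk
    rw [ha]
    exact Nat.find_min' hex hk
  obtain ⟨x, hxx⟩ : ∃ x : G, x = x' := ⟨_, rfl⟩
  have hxH : x ∈ HH z := by rw [hxx]; exact x'.2
  have hκx : κ ⟨x, hxH⟩ = -1 := by
    have : (⟨x, hxH⟩ : HH z) = x' := Subtype.ext hxx
    rw [this, hx1]
  have hxa : x ^ 2 ^ a = 1 := by
    have := congrArg Subtype.val hx2
    rw [hxx]
    exact this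
  have hmin : ∀ u : HH z, κ u = -1 → ∀ k : ℕ, u ^ 2 ^ k = 1 → x ^ 2 ^ k = 1 := by
    intro u hu k huk
    have hle := hfind k ⟨u, hu, huk⟩
    obtain ⟨j, rfl⟩ := Nat.exists_eq_add_of_le hle
    rw [pow_add, pow_mul, hxa, one_pow]
  have ha1 : a ≠ 0 := by
    intro h0
    rw [h0] at hx2
    have : x' = 1 := by simpa using hx2
    rw [this, map_one] at hx1
    exact absurd hx1 (by decide)
  have hmin2 : ∀ (g : G) (n : ℕ), n ≠ 1 → n ∣ 2 ^ a → ∀ hu : g⁻¹ * x ^ n * g ∈ HH z, κ ⟨_, hu⟩ = 1 := by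
    intro g n hn1 hn2 hu
    by_contra hne
    have hne' : κ ⟨_, hu⟩ = -1 := (Int.units_eq_one_or _).resolve_left hne
    obtain ⟨b, hb, rfl⟩ := (Nat.dvd_prime_pow Nat.prime_two).1 hn2
    have hb0 : b ≠ 0 := by
      rintro rfl
      exact hn1 (by simp)
    have hu1 : (⟨_, hu⟩ : HH z) ^ 2 ^ (a - 1) = 1 := by
      apply Subtype.ext
      change (g⁻¹ * x ^ 2 ^ b * g) ^ 2 ^ (a - 1) = 1
      have h1 : (g⁻¹ * x ^ 2 ^ b * g) ^ 2 ^ (a - 1) = g⁻¹ * (x ^ 2 ^ b) ^ 2 ^ (a - 1) * g := by
        have := conj_pow (a := g⁻¹) (b := x ^ 2 ^ b) (i := 2 ^ (a - 1))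
        simpa using this
      rw [h1, ← pow_mul, ← pow_add]
      have h2 : b + (a - 1) = a + (b - 1) := by omega
      rw [h2, pow_add, pow_mul, hxa, one_pow]
      group
    have h1 := hmin _ hne' _ hu1
    have h2 := hfind (a - 1) ⟨x', hx1, by
      apply Subtype.ext
      change (x' : G) ^ 2 ^ (a - 1) = 1
      rw [← hxx]
      exact h1⟩
    omega
  let : Fintype (G ⧸ HH z) := Fintype.ofFinite _
  have hV : MonoidHom.transfer κ x = ∏ y : G ⧸ HH z, nu (HH z) κ x y :=
    transfer_eq_prod (HH z) κ x a hxa hmin2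
  -- the transfer is trivial
  have hV1 : MonoidHom.transfer κ x = 1 := by
    have hle : Cfsg.pResidual 2 G ≤ (MonoidHom.transfer κ).ker := by
      unfold Cfsg.pResidual
      rw [Subgroup.closure_le]
      intro g hg
      have hg' : Nat.Coprime (orderOf g) 2 := hg
      rw [SetLike.mem_coe, MonoidHom.mem_ker]
      rcases Int.units_eq_one_or (MonoidHom.transfer κ g) with h1 | h1
      · exact h1
      · exfalso
        have h2 := congrArg (MonoidHom.transfer κ) (pow_orderOf_eq_one g)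
        rw [map_pow, map_one, h1] at h2
        have hodd : Odd (orderOf g) := Nat.Coprime.odd_of_right hg'
        rw [hodd.neg_one_pow] at h2
        exact absurd h2 (by decide)
    have : x ∈ (MonoidHom.transfer κ).ker := hle (by rw [hres]; trivial)
    exact this
  let H₀ : G ⧸ HH z := ((1 : G) : G ⧸ HH z)
  have hνH₀ : nu (HH z) κ x H₀ = -1 := by
    rw [nu_mk]
    have : (1 : G)⁻¹ * x * 1 = x := by group
    rw [this, KK_of_mem _ _ hxH, hκx]
  let ν' : G ⧸ HH z → ℤˣ := fun y => if y = H₀ then 1 else nu (HH z) κ x y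
  have hν'1 : ∏ y, ν' y = 1 := by
    apply prod_eq_one_of_pairing (E := E)
    intro y₀ hy₀
    have hy₀ne : y₀ ≠ H₀ := by
      intro h
      apply hy₀
      simp [ν', h]
    have hνy₀ : nu (HH z) κ x y₀ ≠ 1 := by
      intro h
      apply hy₀
      simp [ν', h]
    induction y₀ using QuotientGroup.induction_on with
    | H g =>
    have hg : g ∉ HH z := by
      intro hmem
      apply hy₀ne
      change (g : G ⧸ HH z) = ((1 : G) : G ⧸ HH z)
      rw [QuotientGroup.eq]
      simpa using hmem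
    rw [nu_mk] at hνy₀
    obtain ⟨e, heE, he⟩ := pair_main hE hcent hnorm hcard κ hL hxH hκx a hxa hmin hg hνy₀
    refine ⟨⟨e, heE⟩, fun f => ?_⟩
    obtain ⟨h1, h2, h3⟩ := he f f.2
    have hne : ∀ f : E, (((f : G) * g : G) : G ⧸ HH z) ≠ H₀ := by
      intro f hf
      apply hg
      change (((f : G) * g : G) : G ⧸ HH z) = ((1 : G) : G ⧸ HH z) at hf
      rw [QuotientGroup.eq] at hf
      have h4 : ((f : G) * g)⁻¹ * 1 = g⁻¹ * (f : G)⁻¹ := by group
      rw [h4] at hf
      have h5 : g = (f : G)⁻¹ * (g⁻¹ * (f : G)⁻¹)⁻¹ := by group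
      rw [h5]
      exact (HH z).mul_mem ((HH z).inv_mem (E_le_HH hE f.2)) ((HH z).inv_mem hf)
    have hfy : f • ((g : G) : G ⧸ HH z) = (((f : G) * g : G) : G ⧸ HH z) := rfl
    have hefy : (⟨e, heE⟩ : E) • f • ((g : G) : G ⧸ HH z) = ((e * ((f : G) * g) : G) : G ⧸ HH z) := rfl
    have heefy : (⟨e, heE⟩ : E) • (⟨e, heE⟩ : E) • f • ((g : G) : G ⧸ HH z) =
        ((e * (e * ((f : G) * g)) : G) : G ⧸ HH z) := rfl
    have hne2 : ((e * ((f : G) * g) : G) : G ⧸ HH z) ≠ H₀ := by
      have := hne (⟨e, heE⟩ * f)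
      intro h
      apply this
      rw [← h]
      congr 1
      change e * (f : G) * g = e * ((f : G) * g)
      group
    rw [heefy, hefy, hfy]
    refine ⟨?_, h2, h3⟩
    simp only [ν']
    rw [if_neg hne2, if_neg (hne f), nu_mk, nu_mk]
    exact h1
  have h1 : ∏ y, nu (HH z) κ x y = nu (HH z) κ x H₀ * ∏ y ∈ Finset.univ.erase H₀, nu (HH z) κ x y :=
    (Finset.mul_prod_erase _ _ (Finset.mem_univ H₀)).symm
  have h2 : ∏ y, ν' y = ν' H₀ * ∏ y ∈ Finset.univ.erase H₀, ν' y :=
    (Finset.mul_prod_erase _ _ (Finset.mem_univ H₀)).symm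
  have h3 : ∏ y ∈ Finset.univ.erase H₀, ν' y = ∏ y ∈ Finset.univ.erase H₀, nu (HH z) κ x y := by
    apply Finset.prod_congr rfl
    intro y hy
    simp only [ν']
    rw [if_neg (Finset.ne_of_mem_erase hy)]
  have h4 : ν' H₀ = 1 := by simp [ν']
  rw [hν'1, h4, one_mul, h3] at h2
  rw [← hV, hV1, hνH₀, ← h2, mul_one] at h1
  exact absurd h1 (by decide)

end Setup

/-- A non-elementary Sylow `2`-subgroup of the abelianization yields a nontrivial sign character which
is constant on the fibres of `u ↦ u²`. -/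
theorem exists_sign_char {H : Type*} [Group H] [Finite H] (q : Abelianization H)
    (hq : ∃ k : ℕ, orderOf q = 2 ^ k) (hq2 : q ^ 2 ≠ 1) :
    ∃ κ : H →* ℤˣ, (∀ u v, u * u = v * v → κ u = κ v) ∧ ∃ u, κ u ≠ 1 := by
  classical
  obtain ⟨k, hk⟩ := hq
  have he0 : Monoid.exponent (Abelianization H) ≠ 0 := Monoid.exponent_ne_zero_of_finite
  have h4 : 4 ∣ Monoid.exponent (Abelianization H) := by
    have h1 : orderOf q ∣ Monoid.exponent (Abelianization H) := Monoid.order_dvd_exponent q
    have h2 : 2 ≤ k := by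
      by_contra hlt
      have hk1 : k = 0 ∨ k = 1 := by omega
      apply hq2
      apply orderOf_dvd_iff_pow_eq_one.1
      rw [hk]
      rcases hk1 with rfl | rfl <;> norm_num
    have h3 : (4 : ℕ) ∣ orderOf q := by
      rw [hk]
      exact pow_dvd_pow 2 h2
    exact h3.trans h1
  obtain ⟨m, hm⟩ := h4
  have hm0 : 0 < m := by
    rcases Nat.eq_zero_or_pos m with h | h
    · rw [h] at hm; omega
    · exact h
  obtain ⟨g₀, hg₀⟩ := Monoid.exists_orderOf_eq_exponent (Monoid.exponent_ne_zero.1 he0)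
  have hg₁ : g₀ ^ (2 * m) ≠ 1 := by
    apply pow_ne_one_of_lt_orderOf (by omega)
    rw [hg₀, hm]; omega
  have : NeZero (Monoid.exponent (Abelianization H)) := ⟨he0⟩
  obtain ⟨μ, hμ⟩ := CommGroup.exists_apply_ne_one_of_hasEnoughRootsOfUnity (Abelianization H) ℂ hg₁
  -- the homomorphism to `ℂˣ`
  let κ' : H →* ℂˣ := (powMonoidHom (2 * m)).comp (μ.comp Abelianization.of)
  have hκ' : ∀ u, κ' u = μ (Abelianization.of u) ^ (2 * m) := fun u => rfl
  have hsq : ∀ u, κ' u * κ' u = 1 := by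
    intro u
    rw [hκ', ← pow_add, ← map_pow]
    have : 2 * m + 2 * m = Monoid.exponent (Abelianization H) := by rw [hm]; ring
    rw [this, Monoid.pow_exponent_eq_one, map_one]
  have hpm : ∀ u, κ' u = 1 ∨ κ' u = -1 := by
    intro u
    have h1 : ((κ' u : ℂˣ) : ℂ) * ((κ' u : ℂˣ) : ℂ) = 1 := by
      rw [← Units.val_mul, hsq]; rfl
    rcases mul_self_eq_one_iff.1 h1 with h2 | h2
    · left; exact Units.ext h2
    · right; exact Units.ext (by rw [h2]; rfl)
  -- the sign
  have hne : (-1 : ℂˣ) ≠ 1 := by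
    intro h
    have := congrArg Units.val h
    norm_num at this
  let κ : H →* ℤˣ :=
    MonoidHom.mk' (fun u => if κ' u = 1 then 1 else -1) (by
      intro a b
      rw [map_mul]
      rcases hpm a with h1 | h1 <;> rcases hpm b with h2 | h2 <;> rw [h1, h2] <;>
        simp [hne])
  have hκ : ∀ u, κ u = if κ' u = 1 then 1 else -1 := fun u => rfl
  refine ⟨κ, ?_, ?_⟩
  · intro u v huv
    have h1 : κ' u = κ' v := by
      have h2 : ∀ w, κ' w = μ (Abelianization.of (w * w)) ^ m := by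
        intro w
        rw [hκ', map_mul, map_mul, ← pow_two, ← pow_mul]
      rw [h2, h2, huv]
    rw [hκ, hκ, h1]
  · obtain ⟨h₁, hh₁⟩ : ∃ h₁ : H, Abelianization.of h₁ = g₀ := QuotientGroup.mk'_surjective _ g₀
    refine ⟨h₁, fun h2 => hμ ?_⟩
    rw [hκ] at h2
    have h3 : κ' h₁ = 1 := by
      by_contra h
      rw [if_neg h] at h2
      exact absurd h2 (by decide)
    rw [map_pow, ← hh₁]
    exact h3

end Cfsg.Agent.Lib.ExtraTransfer.Main
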